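import Cfsg.Agent.H56.SpDefs

/-! Project CY, chapter SP: no regular normal subgroup when the line groups are `L₂(p)`. -/

set_option autoImplicit false

namespace Cfsg.Agent.H97.CyAr

open Subgroup MulAction Cfsg.Agent.H11.Cy Cfsg.Agent.H56.Sp

theorem ar : ArStmt := by
  intro G _ _ Ω _ _ p A S h5 ep lq ⟨N, hN, tr, reg⟩
  obtain ⟨x, y, hxy⟩ := S.nt.exists_pair_ne
  obtain ⟨-, -, c1, c2⟩ := lq x y hxy
  obtain ⟨n, hn⟩ := tr.exists_smul_eq x y
  have hn' : (n : G) • x = y := hn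
  have le : Fl A x y ≤ N ⊔ A x := by
    refine sup_le le_sup_right fun c hc => ?_
    have h1 := S.eqv (n : G)⁻¹ y c hc
    rw [← hn', inv_smul_smul] at h1
    have e : c = n * ((n : G)⁻¹ * c * (n : G)⁻¹⁻¹) * (n : G)⁻¹ := by group
    rw [e]
    exact mul_mem (mul_mem (mem_sup_left n.2) (mem_sup_right h1)) (inv_mem (mem_sup_left n.2))
  have dec : ∀ f : Fl A x y, ∃ a : A x, (f : G) * (a : G)⁻¹ ∈ N := fun f => by
    have hm : (f : G) ∈ ((N ⊔ A x : Subgroup G) : Set G) := le f.2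
    rw [normal_mul] at hm
    obtain ⟨m, hm, a, ha, e⟩ := hm
    have e' : m * a = f := e
    exact ⟨⟨a, ha⟩, by rw [← e', mul_inv_cancel_right]; exact hm⟩
  choose α hα using dec
  have hx : x ∈ Ln A x y := show A x ≤ Fl A x y from le_sup_left
  let ψ : Fl A x y → Ln A x y × A x := fun f =>
    (⟨(f : G) • x, (ep.nrm x y hxy f).1 (le_normalizer f.2) x hx⟩, α f)
  have inj : Function.Injective ψ := fun f g e => by
    have e1 : (f : G) • x = (g : G) • x := congrArg (fun t => (t.1 : Ω)) e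
    have e2 : α f = α g := congrArg Prod.snd e
    have m := N.mul_mem (N.inv_mem (hα g)) (hα f)
    have fx : ∀ a : A x, (a : G) • x = x := fun a => S.fix x a a.2
    have s : (⟨_, m⟩ : N) ∈ stabilizer N x := by
      show (((g : G) * (α g : G)⁻¹)⁻¹ * ((f : G) * (α f : G)⁻¹)) • x = x
      have i1 : (α f : G)⁻¹ • x = x := by rw [inv_smul_eq_iff, fx]
      rw [mul_smul, mul_smul, i1, e1, mul_inv_rev, inv_inv, mul_smul, inv_smul_smul, fx]
    rw [reg x, mem_bot] at s
    have s' : ((g : G) * (α g : G)⁻¹)⁻¹ * ((f : G) * (α f : G)⁻¹) = 1 := congrArg Subtype.val s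
    rw [inv_mul_eq_one, e2] at s'
    exact Subtype.ext (mul_right_cancel s').symm
  have := Nat.card_le_card_of_injective ψ inj
  rw [Nat.card_prod, S.card x, Nat.card_coe_set_eq, c2] at this
  obtain ⟨q, rfl⟩ : ∃ q, p = q + 5 := ⟨p - 5, by omega⟩
  have e : (q + 5) ^ 2 - 1 = q * q + 10 * q + 24 := by
    rw [Nat.sub_eq_iff_eq_add (Nat.one_le_pow _ _ (by omega))]; ring
  rw [e] at c1
  nlinarith

end Cfsg.Agent.H97.CyAr
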