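import Cfsg.Agent.H10.JmCZ
import Cfsg.Agent.H13.JmX5
import Cfsg.Agent.H24.JmALLD
import Cfsg.Agent.H27.JmEA
import Cfsg.Agent.H28.JmP29
import Cfsg.Agent.H29.JmX4
import Cfsg.Agent.H3.JmP37
import Cfsg.Agent.H31.JmX3
import Cfsg.Agent.H33.JmFIX
import Cfsg.Agent.H39.JmX1
import Cfsg.Agent.H4.JmX2
import Cfsg.Agent.H44.JmTI
import Cfsg.Agent.H45.JmCV
import Cfsg.Agent.H47.JmNC
import Cfsg.Agent.H5.JmCL
import Cfsg.Agent.H52.JmX6
import Cfsg.Agent.H55.JmFR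
import Cfsg.Agent.H57.JmCA
import Cfsg.Agent.H62.JmINV
import Cfsg.Agent.H64.JmEC
import Cfsg.Agent.H65.JmEB
import Cfsg.Agent.H68.JmX7
import Cfsg.Agent.H7.JmOK
import Cfsg.Agent.H75.JmE11
import Cfsg.Agent.H76.JmEE
import Cfsg.Agent.H79.JmP43
import Cfsg.Agent.H81.JmSM
import Cfsg.Agent.H86.JmCONG
import Cfsg.Agent.H9.JmSYL
import Cfsg.Agent.H95.JmED
import Cfsg.Agent.H96.JmPN
import Cfsg.Agent.H98.JmC11
import Cfsg.Agent.H97.JmC
import Cfsg.Agent.S5575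

/-!
# Maximal subgroups of the fourth Janko group: assembly
-/

set_option autoImplicit false

namespace Cfsg.Agent.H97.JM

open Subgroup

universe u

variable {G : Type u} [Group G] [Finite G]

theorem ctx [IsSimpleGroup G] (hG : ¬ IsMulCommutative G) (hJ : IsOfJankoFourType G) : Ctx G where
  simple := inferInstance
  card := (pX1 G hG hJ).1
  big := (pX1 G hG hJ).2.1
  n7 a ha := (pX2 G hG hJ a ha).1
  c7 a ha := (pX2 G hG hJ a ha).2.1
  k7 a ha := (pX2 G hG hJ a ha).2.2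
  c3 := pX3 G hG hJ
  n11 U := ⟨(S5575.result hG hJ U).2.1, (S5575.result hG hJ U).2.2.2.1⟩
  ti := pX4 G hG hJ
  ev := (pX1 G hG hJ).2.2

theorem all_syl {p : ℕ} (hp : p.Prime) (h2 : ¬ p ^ 2 ∣ Nat.card G)
    (h : ∃ g : G, orderOf g = p ∧ IsCoatom (normalizer ((zpowers g : Subgroup G) : Set G)))
    (U : Sylow p G) : IsCoatom (normalizer ((U : Subgroup G) : Set G)) := by
  have := Fact.mk hp
  obtain ⟨g, o, h⟩ := h
  obtain ⟨P, e⟩ := H33.J4O.exists_sylow (p := p) (k := 1) (A := zpowers g)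
    (by rw [Nat.card_zpowers, o, pow_one]) h2
  exact pTR G p P U (e ▸ h)

theorem main [IsSimpleGroup G] (hG : ¬ IsMulCommutative G) (z : G) (hJ : IsOfJankoFourTypeAt z) :
    IsCoatom (centralizer ({z} : Set G)) ∧
    (∀ V : Subgroup G, IsElementaryAbelian 2 V → Nat.card V = 2 ^ 11 →
      IsCoatom (normalizer (V : Set G))) ∧
    (∀ A : Subgroup G, IsElementaryAbelian 2 A → Nat.card A = 2 ^ 10 → centralizer (A : Set G) = A →
      IsCoatom (normalizer (A : Set G))) ∧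
    (∃ L : Subgroup G, IsSpecial 2 L ∧ Nat.card L = 2 ^ 15 ∧ Nat.card (center L) = 8 ∧
      IsCoatom (normalizer (L : Set G))) ∧
    (∀ U : Sylow 11 G, IsCoatom (normalizer ((U : Subgroup G) : Set G))) ∧
    (∀ U : Sylow 29 G, IsCoatom (normalizer ((U : Subgroup G) : Set G))) ∧
    (∀ U : Sylow 37 G, IsCoatom (normalizer ((U : Subgroup G) : Set G))) ∧
    (∀ U : Sylow 43 G, IsCoatom (normalizer ((U : Subgroup G) : Set G))) := by
  have Γ := ctx hG ⟨z, hJ⟩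
  have hM := pX6 G hG ⟨z, hJ⟩
  have hOK := pOK.{u} pCONG
  have hINV := pINV.{u} pFIX
  have h43 := all_syl (by norm_num) (by rw [Γ.card]; norm_num)
    (pP43 pALLD hOK pSYL pNC pFIX hINV G Γ (c43 hM Γ.n7))
  have h29 := all_syl (by norm_num) (by rw [Γ.card]; norm_num)
    (pP29 pALLD hOK pSYL pNC pFIX hINV G Γ (c29 hM Γ.n7))
  have h37 := all_syl (by norm_num) (by rw [Γ.card]; norm_num)
    (pP37 pALLD hOK pSYL (pPN pALLD hOK pSYL pNC pFIX hINV pFR pCONG) G Γ (c37 hM Γ.c3))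
  obtain ⟨x, Q, U, hZ⟩ := pX5 G hG z hJ
  have h11 : IsCoatom (normalizer ((U : Subgroup G) : Set G)) := by
    refine pC11 pALLD hOK pTI pCONG pNC pFR G Γ U (fun a ha => ?_)
      (pE11 pEA (pEB pCONG pFIX) pEC pED (pEE pFIX) G Γ z x Q U hZ)
    have := Fact.mk (show Nat.Prime 29 by norm_num)
    obtain ⟨P, e⟩ := H33.J4O.exists_sylow (p := 29) (k := 1) (A := zpowers a)
      (by rw [Nat.card_zpowers, ha, pow_one]) (by rw [Γ.card]; norm_num)
    exact e ▸ h29 P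
  obtain ⟨x1, x2, L, F, S, l1, l2, l3, l4, l5, l6⟩ := pX7 G hG ⟨z, hJ⟩
  have := Fact.mk (show Nat.Prime 11 by norm_num)
  refine ⟨pCZ pALLD hOK pSYL G Γ z x Q U hZ h11,
    fun V v1 v2 => pCV pALLD hOK pCONG G Γ _ (x1 V v1 v2), fun A a1 a2 a3 => ?_,
    ⟨L, l1, l2, l3, pCL pALLD hOK pSYL pTI G Γ _ F S l4 l5 l6⟩,
    fun U' => pTR G 11 U U' h11, h29, h37, h43⟩
  obtain ⟨B, b1, b2, b3, b4, b5, b6, b7⟩ := x2 A a1 a2 a3
  exact pCA pALLD hOK pCONG pFIX pSM G Γ A B b1 a2 b2 b3 b4 b5 b6 b7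

end Cfsg.Agent.H97.JM
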