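import Cfsg.Agent.H10.JnNB
import Cfsg.Agent.H27.JnY5
import Cfsg.Agent.H72.JnEXT
import Cfsg.Agent.H76.JnB32
import Cfsg.Agent.H80.JnBP
import Cfsg.Agent.H81.JnQP
import Cfsg.Agent.H90.JnQL
import Cfsg.Agent.H97.JnC
import Cfsg.Agent.H97.JmAll

/-!
# Two maximal subgroups of the fourth Janko group
-/

set_option autoImplicit false

namespace Cfsg.Agent.H97.JM

universe u

variable {G : Type u} [Group G] [Finite G] [IsSimpleGroup G]

theorem maxL232 (hG : ¬ IsMulCommutative G) (hJ : IsOfJankoFourType G) :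
    ∃ M : Subgroup G, IsCoatom M ∧ ∃ (K : Subgroup M) (F : Type) (_ : Field F) (_ : Fintype F),
      Fintype.card F = 32 ∧ K.Normal ∧ K.index = 5 ∧
        Nonempty (K ≃* Matrix.ProjectiveSpecialLinearGroup (Fin 2) F) :=
  l232 qB32 qEXT (qQL pALLD (pOK pCONG) pSYL pCONG) (ctx hG hJ) (pX6 G hG hJ) (qY5 G hG hJ).1

theorem maxPGL23 (hG : ¬ IsMulCommutative G) (hJ : IsOfJankoFourType G) :
    ∃ M : Subgroup G, IsCoatom M ∧
      Nonempty (M ≃* GL (Fin 2) (ZMod 23) ⧸ Subgroup.center (GL (Fin 2) (ZMod 23))) :=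
  pgl23 qBP (qQP pALLD (pOK pCONG) pSYL pCONG) qNB (ctx hG hJ) (pX6 G hG hJ) (qY5 G hG hJ).2

end Cfsg.Agent.H97.JM
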