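import Cfsg.Agent.H54.O84Defs

set_option autoImplicit false
set_option maxRecDepth 100000

namespace Cfsg.Agent.H97.O84

open Cfsg.Agent.H54.O84 Equiv Cfsg.Lie H37 H40 H34 H29

/-- The positive roots of a set. -/
def Pz (S : Set Rt) : Set Rt := {r | r ∈ S ∧ C8.S.pos r}

theorem WJ_le : C8.S.WJ J ≤ WS Δ0 := by
  refine Subgroup.closure_mono ?_
  rintro _ ⟨j, hj, rfl⟩
  exact ⟨C8.S.α j, C8.S.α_mem_Phi hj, C8.R.τ_simple j⟩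

theorem dec0 {x : GK} (hx : x ∈ P8.U Δ0) : ∃ a ∈ P8.U (Pz Δ0), ∃ n ∈ P8.N, n ∈ P8.U Δ0 ∧
    P8.ν n ∈ WS Δ0 ∧ ∃ u ∈ P8.U (Pz Δ0), x = a * n * u := by
  obtain ⟨a, ha, n, hn, hJ, u, hu, e⟩ := Split.bruhat_J (P := P8) J (Subgroup.mem_sup_right hx)
  have ha' : a ∈ P8.U (Pz Δ0) := by rwa [C8.S.inv_wJ] at ha
  have hu' : u ∈ P8.U (Pz Δ0) := Split.U_sub hu fun r hr => ⟨by
    by_contra h
    exact hr.2 (C8.S.pos_of_not_mem_Phi hJ hr.1 h), hr.1⟩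
  refine ⟨a, ha', n, hn, ?_, WJ_le hJ, u, hu', e⟩
  have : n = a⁻¹ * x * u⁻¹ := by rw [e]; group
  rw [this]
  exact mul_mem (mul_mem (inv_mem (Split.U_sub ha' fun r h => h.1)) hx)
    (inv_mem (Split.U_sub hu' fun r h => h.1))

def gL : List ℕ := [4,5,6,7,2,1,3,4,5,6,0,2,3,4,5,1,3,4,2,3,0,2,1,3,4,5,6,7,4,5,1,3,4,2,3,0,2,1,3,4,
  5,6,2,3,0,2,1,3,4,5,1,3,2,0]

noncomputable def gF (r : ℕ) : ℕ := gL.foldr (fun i s => rf (i % 8) s) r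

theorem pos_iff (r : Rt) : C8.S.pos r ↔ ∀ j < 8, 0 ≤ rcN r j :=
  ⟨fun h j hj => rc_val r ⟨j, hj⟩ ▸ h ⟨j, hj⟩, fun h j => by
    have := h j j.2
    rwa [← rc_val] at this⟩

theorem g_mem {r : Rt} (hr : r ∈ Δ0) : wd gL r ∈ Δ1 := by
  have : ∀ r ∈ d0L, gF r ∈ d1L := by decide +kernel
  rw [mem_Δ1, wd_val]; exact this _ (mem_Δ0.1 hr)

theorem g_pos {r : Rt} (hr : r ∈ Pz Δ0) : wd gL r ∈ Pz Δ1 := by
  have : ∀ r ∈ d0L, (∀ j < 8, 0 ≤ rcN r j) → ∀ j < 8, 0 ≤ rcN (gF r) j := by decide +kernel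
  refine ⟨g_mem hr.1, ?_⟩
  rw [pos_iff, wd_val]
  exact this _ (mem_Δ0.1 hr.1) ((pos_iff r).1 hr.2)

theorem g_inv {s : Rt} (hs : s ∈ Δ1) : (wd gL)⁻¹ s ∈ Δ0 := by
  have : ∀ s ∈ d1L, ∃ r ∈ d0L, r < 240 ∧ gF r = s := by decide +kernel
  obtain ⟨r, hr, h1, h2⟩ := this _ (mem_Δ1.1 hs)
  have e : wd gL ⟨r, h1⟩ = s := Fin.ext ((wd_val _ _).trans h2)
  rw [Perm.inv_eq_iff_eq.2 e.symm]
  exact mem_Δ0.2 hr

theorem dec1 (hR : RhoStmt) {y : GK} (hy : y ∈ P8.U Δ1) : ∃ a ∈ P8.U (Pz Δ1), ∃ n ∈ P8.N,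
    n ∈ P8.U Δ1 ∧ P8.ν n ∈ WS Δ1 ∧ ∃ u ∈ P8.U (Pz Δ1), y = a * n * u := by
  obtain ⟨m, hm, e⟩ := P8.exists_lift (wd_mem gL)
  obtain ⟨a, ha, n, hn, hnU, hν, u, hu, e2⟩ :=
    dec0 (Split.conj_U' hm (fun r hr => e ▸ g_inv hr) hy)
  refine ⟨_, Split.conj_U hm (fun r hr => e ▸ g_pos hr) ha, m * n * m⁻¹,
    mul_mem (mul_mem hm hn) (inv_mem hm), Split.conj_U hm (fun r hr => e ▸ g_mem hr) hnU, ?_,
    _, Split.conj_U hm (fun r hr => e ▸ g_pos hr) hu, ?_⟩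
  · rw [P8.ν_mul _ (mul_mem hm hn) _ (inv_mem hm), P8.ν_mul _ hm _ hn, Split.ν_inv hm, e]
    have h1 : wd gL * P8.ν n * (wd gL)⁻¹ ∈ (WS Δ0).map (MulAut.conj (wd gL)).toMonoidHom :=
      ⟨_, hν, rfl⟩
    rw [hR.2.2.2.2.2.2.2.2.2 _ (wd_mem gL)] at h1
    refine Subgroup.closure_mono (Set.image_mono ?_) h1
    rintro _ ⟨r, hr, rfl⟩
    exact g_mem hr
  · rw [show y = m * (m⁻¹ * y * m) * m⁻¹ by group, e2]; group

theorem nm3 (hR : RhoStmt) (hC : CommStmt) : Nm3Stmt := by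
  intro g hg hU
  obtain ⟨x, hx, y, hy, e⟩ := hC.2 g hU
  obtain ⟨a, ha, n, hn, hnU, hν, u, hu, rfl⟩ := dec0 hx
  obtain ⟨a', ha', n', hn', hnU', hν', u', hu', rfl⟩ := dec1 hR hy
  have B : ∀ {S : Set Rt} {z : GK}, z ∈ P8.U (Pz S) → z ∈ P8.B := fun h =>
    Split.Up_le_B (Split.U_sub h fun r h => h.2)
  have c1 := hC.1 n hnU a' (Split.U_sub ha' fun r h => h.1)
  have c2 := hC.1 u (Split.U_sub hu fun r h => h.1) a' (Split.U_sub ha' fun r h => h.1)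
  have c3 := hC.1 u (Split.U_sub hu fun r h => h.1) n' hnU'
  have e2 : g = a * a' * (n * n') * (u * u') := by
    calc g = a * (n * (u * a')) * n' * u' := by rw [e]; group
      _ = a * (n * a') * (u * n') * u' := by rw [c2.eq]; group
      _ = _ := by rw [c1.eq, c3.eq]; group
  rw [Split.ν_eq_of_eq (mul_mem (B ha) (B ha')) (mul_mem hn hn') (mul_mem (B hu) (B hu')) hg e2,
    P8.ν_mul _ hn _ hn']
  exact mul_mem (Subgroup.closure_mono (Set.image_mono Set.subset_union_left) hν)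
    (Subgroup.closure_mono (Set.image_mono Set.subset_union_right) hν')

end Cfsg.Agent.H97.O84
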