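import Cfsg.Agent.H97.Meta2
import Cfsg.Agent.H90.Metacyclic

/-!
Chains of subgroups with cyclic steps; characteristic chains in metacyclic groups of odd order.
-/

set_option autoImplicit false

open scoped commutatorElement

namespace Cfsg.Agent.H97

open Cfsg Subgroup H9 H8

variable {X Y : Type*} [Group X] [Group Y] {p : ℕ}

/-- `H` is the top of a chain from `1` with cyclic steps all of whose terms satisfy `Q` -/
inductive CC (Q : Subgroup X → Prop) : Subgroup X → Prop
  | bot : Q ⊥ → CC Q ⊥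
  | step (H : Subgroup X) (x : X) : CC Q H → Q (H ⊔ zpowers x) → CC Q (H ⊔ zpowers x)

theorem CC.prop {Q : Subgroup X → Prop} {H : Subgroup X} (h : CC Q H) : Q H := by
  cases h <;> assumption

theorem CC.step' {Q : Subgroup X → Prop} {H K : Subgroup X} (h : CC Q H) (hK : Q K) {x : X}
    (e : K = H ⊔ zpowers x) : CC Q K := by
  subst e; exact h.step H x hK

theorem CC.map {Q : Subgroup X → Prop} {Q' : Subgroup Y → Prop} (f : X →* Y)
    (hQ : ∀ K, Q K → Q' (K.map f)) {H : Subgroup X} (h : CC Q H) : CC Q' (H.map f) := by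
  induction h with
  | bot h => exact map_bot f ▸ CC.bot (map_bot f ▸ hQ _ h)
  | step H x _ h ih => exact ih.step' (hQ _ h) (by rw [Subgroup.map_sup, MonoidHom.map_zpowers])

theorem CC.mono {Q Q' : Subgroup X → Prop} (hQ : ∀ K, Q K → Q' K) {H : Subgroup X} (h : CC Q H) :
    CC Q' H := by
  induction h with
  | bot h => exact CC.bot (hQ _ h)
  | step H x _ h ih => exact ih.step _ x (hQ _ h)

theorem CC.subgroupOf {Q : Subgroup X → Prop} {S : Subgroup X} (hQ : ∀ K, Q K → K ≤ S)
    {H : Subgroup X} (h : CC Q H) :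
    CC (fun K : Subgroup S => Q (K.map S.subtype)) (H.subgroupOf S) := by
  induction h with
  | bot h => rw [bot_subgroupOf]; exact CC.bot (by rwa [Subgroup.map_bot])
  | step H x k h ih =>
    have h1 := hQ _ h
    refine ih.step' (x := ⟨x, h1 (mem_sup_right (mem_zpowers x))⟩)
      (by rwa [map_subgroupOf_eq_of_le h1]) (map_injective S.subtype_injective ?_)
    rw [map_subgroupOf_eq_of_le h1, Subgroup.map_sup, map_subgroupOf_eq_of_le (hQ _ k.prop),
      MonoidHom.map_zpowers]; rfl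

theorem CC.induct {Q : Subgroup X → Prop} {H : Subgroup X} (h : CC Q H) (R : Subgroup X → Prop)
    (h0 : R ⊥) (h1 : ∀ K x, Q K → Q (K ⊔ zpowers x) → R K → R (K ⊔ zpowers x)) : R H := by
  induction h with
  | bot _ => exact h0
  | step H x k h ih => exact h1 H x k.prop h ih

theorem cc_iff {Q : Subgroup X → Prop} {S : Subgroup X} (hQ : ∀ K, Q K → K ≤ S) {H : Subgroup X} :
    CC Q H ↔ ∃ (m : ℕ) (c : Fin (m + 1) → Subgroup X), c 0 = ⊥ ∧ c (Fin.last m) = H ∧
      (∀ i, Q (c i)) ∧ ∀ i : Fin m, c i.castSucc ≤ c i.succ ∧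
        ∃ x ∈ S, c i.succ = c i.castSucc ⊔ zpowers x := by
  constructor
  · intro h
    induction h with
    | bot h => exact ⟨0, fun _ => ⊥, rfl, rfl, fun _ => h, fun i => i.elim0⟩
    | step H x _ h ih =>
      obtain ⟨m, c, h0, h1, h2, h3⟩ := ih
      refine ⟨m + 1, Fin.snoc c (H ⊔ zpowers x), ?_, Fin.snoc_last .., fun i => ?_, fun i => ?_⟩
      · rw [← h0]; exact Fin.snoc_castSucc (α := fun _ => Subgroup X) _ c 0
      · induction i using Fin.lastCases with
        | last => rwa [Fin.snoc_last]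
        | cast i => rw [Fin.snoc_castSucc]; exact h2 i
      · induction i using Fin.lastCases with
        | last =>
          rw [Fin.succ_last, Fin.snoc_last, Fin.snoc_castSucc, h1]
          exact ⟨le_sup_left, x, hQ _ h (mem_sup_right (mem_zpowers x)), rfl⟩
        | cast i => rw [Fin.succ_castSucc, Fin.snoc_castSucc, Fin.snoc_castSucc]; exact h3 i
  · rintro ⟨m, c, h0, rfl, h2, h3⟩
    have : ∀ i, CC Q (c i) := fun i => by
      induction i using Fin.induction with
      | zero => rw [h0]; exact CC.bot (h0 ▸ h2 0)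
      | succ i ih =>
        obtain ⟨-, x, -, e⟩ := h3 i
        exact ih.step' (h2 _) e
    exact this _

theorem cc_two {Q : Subgroup X → Prop} (h0 : Q ⊥) {a b : X} (h1 : Q (zpowers a))
    (h2 : Q (zpowers a ⊔ zpowers b)) : CC Q (zpowers a ⊔ zpowers b) :=
  ((CC.bot h0).step' h1 (bot_sup_eq _).symm).step _ b h2

theorem cc_char_of_index [Finite X] [hp : Fact p.Prime] (hX : IsPGroup p X) (hm : IsMetacyclic X)
    {M : Subgroup X} [M.Characteristic] (hM : M.index = p) :
    CC Characteristic (⊤ : Subgroup X) := by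
  obtain ⟨a, b, -, hab⟩ := H71.isMetacyclic_iff.1 hm
  have hc := isCyclic_of_prime_card (α := X ⧸ M) hM
  have hD : _root_.commutator X ≤ M := by
    rw [_root_.commutator, commutator_le]
    intro x _ y _
    rw [← QuotientGroup.eq_one_iff]
    change QuotientGroup.mk' M _ = 1
    rw [map_commutatorElement, commutatorElement_eq_one_iff_mul_comm]
    exact hc.isMulCommutative.is_comm.comm _ _
  have hco := H89.isCoatom_of_index_prime hp.out hM
  obtain ⟨u, v, hu, hv, huv⟩ : ∃ u v, u ∈ M ∧ v ∉ M ∧ zpowers u ⊔ zpowers v = ⊤ := by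
    by_cases ha : a ∈ M
    · exact ⟨a, b, ha, fun hb => hco.1 (top_le_iff.1 (hab ▸ sup_le (zpowers_le.2 ha)
        (zpowers_le.2 hb))), hab⟩
    have : M ⊔ zpowers a = ⊤ := hco.2 _ (left_lt_sup.2 fun h => ha (zpowers_le.1 h))
    obtain ⟨m, hm, _, ⟨i, rfl⟩, rfl⟩ := mem_sup_of_normal_left.1 (this ▸ mem_top b)
    refine ⟨m, a, hm, ha, top_le_iff.1 (hab ▸ sup_le le_sup_right (zpowers_le.2 ?_))⟩
    exact mul_mem (mem_sup_left (mem_zpowers m)) (mem_sup_right ⟨i, rfl⟩)
  let π := Abelianization.of (G := X)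
  have hπ : ∀ x y : X, π x = π y → ∀ K : Subgroup X, _root_.commutator X ≤ K → y ∈ K → x ∈ K :=
    fun x y e K hK hy => by
      have : x⁻¹ * y ∈ _root_.commutator X := QuotientGroup.eq.1 e
      simpa using inv_mem (mul_mem (hK this) (inv_mem hy))
  have hg : ∀ g : X, ∃ i j : ℤ, π g = π (u ^ i * v ^ j) := fun g => by
    have : π g ∈ zpowers (π u) ⊔ zpowers (π v) := by
      rw [← MonoidHom.map_zpowers, ← MonoidHom.map_zpowers, ← Subgroup.map_sup, huv]
      exact mem_map_of_mem _ (mem_top g)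
    obtain ⟨_, ⟨i, rfl⟩, _, ⟨j, rfl⟩, e⟩ := mem_sup.1 this
    exact ⟨i, j, by simp [← e]⟩
  have hpw : ∀ (k : ℕ) (g : X) (i j : ℤ), π g = π (u ^ i * v ^ j) →
      π (g ^ p ^ k) = π ((u ^ p ^ k) ^ i * (v ^ j) ^ p ^ k) := fun k g i j e => by
    simp only [map_pow, map_mul, map_zpow, e, mul_pow]
    rw [← zpow_natCast (π u ^ i), ← zpow_natCast (π u), ← zpow_mul, ← zpow_mul, mul_comm i]
  let N : ℕ → Subgroup X := fun k => _root_.commutator X ⊔ powerClosure p k ⊤
  let L : ℕ → Subgroup X := fun k => _root_.commutator X ⊔ powerClosure p k M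
  have e1 : ∀ k, N k = L k ⊔ zpowers (v ^ p ^ k) := fun k => by
    refine le_antisymm (sup_le (le_sup_of_le_left le_sup_left)
      (H90.powerClosure_le_iff.2 fun g _ => ?_)) (sup_le (sup_le_sup_left
        (H90.powerClosure_mono k le_top) _) (zpowers_le.2 (mem_sup_right
          (H90.pow_mem_powerClosure (mem_top v)))))
    obtain ⟨i, j, e⟩ := hg g
    refine hπ _ _ (hpw k g i j e) _ (le_sup_of_le_left le_sup_left) (mul_mem (mem_sup_left
      (mem_sup_right (zpow_mem (H90.pow_mem_powerClosure hu) i))) (mem_sup_right ⟨j, ?_⟩))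
    simp only
    rw [← zpow_natCast, ← zpow_natCast, ← zpow_mul, ← zpow_mul, mul_comm]
  have e2 : ∀ k, L k = N (k + 1) ⊔ zpowers (u ^ p ^ k) := fun k => by
    have k1 : ∀ g : X, g ^ p ∈ M := fun g => hM ▸ M.pow_index_mem g
    refine le_antisymm (sup_le (le_sup_of_le_left le_sup_left)
      (H90.powerClosure_le_iff.2 fun g hg' => ?_)) (sup_le (sup_le_sup_left
        (H90.powerClosure_le_iff.2 fun g _ => ?_) _) (zpowers_le.2 (mem_sup_right
          (H90.pow_mem_powerClosure hu))))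
    · obtain ⟨i, j, e⟩ := hg g
      have k2 : v ^ j ∈ M := (mul_mem_cancel_left (zpow_mem hu i)).1 (hπ _ _ e.symm M hD hg')
      obtain ⟨j, rfl⟩ : (p : ℤ) ∣ j := by
        have k3 : orderOf (v : X ⧸ M) = p := orderOf_eq_prime
          ((QuotientGroup.eq_one_iff (v ^ p)).2 (k1 v)) (by rwa [Ne, QuotientGroup.eq_one_iff])
        rw [← k3, orderOf_dvd_iff_zpow_eq_one]
        exact (QuotientGroup.eq_one_iff (v ^ j)).2 k2
      refine hπ _ _ (hpw k g i _ e) _ (le_sup_of_le_left le_sup_left) (mul_mem (mem_sup_right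
        ⟨i, rfl⟩) (mem_sup_left (mem_sup_right ?_)))
      rw [mul_comm, zpow_mul, zpow_natCast, ← pow_mul, ← pow_succ']
      exact H90.pow_mem_powerClosure (mem_top _)
    · rw [pow_succ', pow_mul]
      exact H90.pow_mem_powerClosure (k1 g)
  obtain ⟨n, hn⟩ := IsPGroup.iff_card.1 hX
  obtain ⟨d, hd⟩ := (Subgroup.isCyclic_iff_exists_zpowers_eq_top _).1
    (H71.isCyclic_commutator_of_isMetacyclic hm)
  have h0 : CC Characteristic (N n) := by
    refine (CC.bot botCharacteristic).step' (x := d) inferInstance ?_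
    rw [bot_sup_eq, hd]
    refine sup_eq_left.2 (H90.powerClosure_le_iff.2 fun g _ => ?_)
    rw [← hn, pow_card_eq_one']
    exact one_mem _
  have h1 : ∀ k ≤ n, CC Characteristic (N k) := fun k hk => by
    induction hk using Nat.decreasingInduction with
    | self => exact h0
    | of_succ k _ ih =>
      exact (ih.step' (K := L k) inferInstance (e2 k)).step' inferInstance (e1 k)
  simpa [N, H90.powerClosure_zero] using h1 0 (Nat.zero_le n)

theorem homocyclic_of_factor {a b : X} (hc : Commute a b) (h1 : zpowers a ⊓ zpowers b = ⊥)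
    (h2 : zpowers a ⊔ zpowers b = ⊤) {N : ℕ} [NeZero N] (ha : orderOf a = N) (hb : orderOf b = N) :
    Nonempty (X ≃* Multiplicative (ZMod N) × Multiplicative (ZMod N)) := by
  obtain ⟨e⟩ := wU_equiv (N := N) hc fun i j => by
    rw [← ha, orderOf_dvd_iff_zpow_eq_one, ha, ← hb, orderOf_dvd_iff_zpow_eq_one]
    refine ⟨fun e => ?_, fun e => by rw [e.1, e.2, mul_one]⟩
    have k : a ^ i = 1 := mem_bot.1 (h1 ▸ mem_inf.2 ⟨⟨i, rfl⟩, by
      rw [eq_inv_of_mul_eq_one_left e]; exact inv_mem ⟨j, rfl⟩⟩)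
    exact ⟨k, by rwa [k, one_mul] at e⟩
  have : (⊤ : Subgroup X) = wU a b := by
    rw [← h2, wU, zpowers_eq_closure, zpowers_eq_closure, ← Subgroup.closure_union]; rfl
  exact ⟨((topEquiv.symm.trans (MulEquiv.subgroupCongr this)).trans e).trans
    (MulEquiv.prodMultiplicative _ _)⟩

theorem exists_char_of_comm {Y : Type*} [CommGroup Y] [hp : Fact p.Prime] {a b : Y}
    (h2 : zpowers a ⊔ zpowers b = ⊤) {k l : ℕ} (ha : orderOf a = p ^ k) (hb : orderOf b = p ^ l)
    (h : l < k) : ∃ M : Subgroup Y, M.Characteristic ∧ M.index = p := by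
  obtain ⟨k, rfl⟩ := Nat.exists_eq_add_of_lt h
  refine ⟨(powMonoidHom (p ^ (l + k)) : Y →* Y).ker, ⟨fun φ => by ext x; simp [← map_pow]⟩, ?_⟩
  rw [index_ker, MonoidHom.range_eq_map, ← h2, Subgroup.map_sup, MonoidHom.map_zpowers,
    MonoidHom.map_zpowers, powMonoidHom_apply, powMonoidHom_apply, pow_add _ l k, pow_mul b, ← hb,
    pow_orderOf_eq_one, one_pow, zpowers_one_eq_bot, sup_bot_eq, Nat.card_zpowers, hb, ← pow_add,
    orderOf_pow_prime_pow hp.out ha (Nat.le_succ _)]
  simp

theorem cc_char_of_odd [Finite X] [hp : Fact p.Prime] (h2 : p ≠ 2) (hX : IsPGroup p X)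
    (hm : IsMetacyclic X) (h : ¬ ∃ n : ℕ, 0 < n ∧
      Nonempty (X ≃* Multiplicative (ZMod (p ^ n)) × Multiplicative (ZMod (p ^ n)))) :
    CC Characteristic (⊤ : Subgroup X) := by
  by_cases hM : ∃ M : Subgroup X, M.Characteristic ∧ M.index = p
  · obtain ⟨M, _, hM⟩ := hM
    exact cc_char_of_index hX hm hM
  have hs := QuotientGroup.mk'_surjective (_root_.commutator X)
  have hY : IsPGroup p (Abelianization X) := hX.to_quotient _
  obtain ⟨x, y, k1, k2, k3⟩ := H90.exists_factorization h2 hY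
    (H71.isMetacyclic_of_surjective hm _ hs)
  rw [H90.closure_pair_eq_sup] at k2
  obtain ⟨n, hx⟩ := IsPGroup.iff_orderOf.1 hY x
  obtain ⟨l, hy⟩ := IsPGroup.iff_orderOf.1 hY y
  have hM' : ¬ ∃ M : Subgroup (Abelianization X), M.Characteristic ∧ M.index = p :=
    fun ⟨M, k, e⟩ => hM ⟨_, Characteristic.comap_quotient_mk k,
      (index_comap_of_surjective _ hs).trans e⟩
  obtain rfl : n = l := le_antisymm (not_lt.1 fun e => hM' (exists_char_of_comm k2 hx hy e))
    (not_lt.1 fun e => hM' (exists_char_of_comm (sup_comm (zpowers x) _ ▸ k2) hy hx e))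
  have hpow : ∀ g : X, g ^ p ^ n ∈ _root_.commutator X := fun g => by
    obtain ⟨_, ⟨i, rfl⟩, _, ⟨j, rfl⟩, e⟩ := mem_sup.1 (k2 ▸ mem_top (Abelianization.of g))
    refine (QuotientGroup.eq_one_iff _).1 (?_ : Abelianization.of (g ^ p ^ n) = 1)
    rw [map_pow, ← e, mul_pow, ← zpow_natCast, ← zpow_natCast, ← zpow_mul, ← zpow_mul, mul_comm i,
      mul_comm j, zpow_mul, zpow_mul, zpow_natCast, zpow_natCast]
    conv_lhs => rw [← hx, pow_orderOf_eq_one, hx, ← hy, pow_orderOf_eq_one]
    simp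
  have hw := H90.weakReg_of_metacyclic h2 hX hm
  have hex : ∃ e : ℕ, ∀ g : X, g ^ p ^ e = 1 := by
    obtain ⟨e, he⟩ := IsPGroup.iff_card.1 hX
    exact ⟨e, fun g => he ▸ pow_card_eq_one'⟩
  classical
  have hall : ∀ g : X, g ^ p ^ n = 1 := by
    by_contra hn
    obtain ⟨e, he⟩ : ∃ e, Nat.find hex = n + e + 1 := Nat.exists_eq_add_of_lt
      (not_le.1 fun k => hn fun g => by
        obtain ⟨c, rfl⟩ := Nat.exists_eq_add_of_le k
        rw [pow_add, pow_mul, Nat.find_spec hex, one_pow])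
    have e1 := Nat.find_spec hex
    have e2 := Nat.find_min hex (m := n + e) (by omega)
    rw [he] at e1
    refine hM ⟨hw.omega (n + e), inferInstance, ?_⟩
    have hc : IsCyclic (powerClosure p (n + e) (⊤ : Subgroup X)) :=
      have := H71.isCyclic_commutator_of_isMetacyclic hm
      Subgroup.isCyclic_of_le (H' := _root_.commutator X) (H90.powerClosure_le_iff.2 fun g _ => by
        rw [pow_add, pow_mul]; exact pow_mem (hpow g) _)
    rw [hw.index_omega]
    refine ((Nat.dvd_prime hp.out).1 (H90.card_dvd_of_isCyclic_of_pow ?_)).resolve_left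
      fun k => e2 fun g => ?_
    · rintro ⟨z, hz⟩
      obtain ⟨g, -, rfl⟩ := hw.mem_powerClosure_iff.1 hz
      exact Subtype.ext (by rw [coe_pow, ← pow_mul, ← pow_succ, e1]; rfl)
    · exact mem_bot.1 (card_eq_one.1 k ▸ H90.pow_mem_powerClosure (mem_top g))
  have hD : _root_.commutator X = ⊥ := by
    have e1 := Nat.le_of_dvd (pow_pos (pow_pos hp.out.pos n) 2) (H90.card_dvd_sq_of_metacyclic hm hall)
    have e2 := (_root_.commutator X).card_mul_index
    rw [show (_root_.commutator X).index = Nat.card (Abelianization X) from rfl, ← k3, hx, hy,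
      ← sq] at e2
    rw [← e2] at e1
    exact card_eq_one.1 (le_antisymm (by nlinarith [pow_pos (pow_pos hp.out.pos n) 2]) Nat.card_pos)
  have e : X ≃* Abelianization X :=
    ((QuotientGroup.quotientMulEquivOfEq hD).trans QuotientGroup.quotientBot).symm
  rcases n with _ | n
  · have : (⊤ : Subgroup X) = ⊥ := eq_bot_iff.2 fun g _ => by simpa using hall g
    exact this ▸ CC.bot botCharacteristic
  · obtain ⟨f⟩ := homocyclic_of_factor (Commute.all x y) k1 k2 hx hy
    exact absurd ⟨n + 1, Nat.succ_pos n, ⟨e.trans f⟩⟩ h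

end Cfsg.Agent.H97
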