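import Cfsg.Agent.H97.SwKit

set_option autoImplicit false
set_option linter.unusedSectionVars false
open Matrix Cfsg
open scoped commutatorElement

namespace Cfsg.Agent.H97.Sw

open Cfsg.Agent.H58.SW

section
variable {F : Type} [Field F] [Fintype F] [DecidableEq F] {n : ℕ}
variable {c : Cl F n} (ka : KA c) (hu : c.u = true)
include ka hu

theorem eig {E : Finset (Mt n F)} (fam : Fam E) (sf : c.SF E) {s : Gl n F} (hs : s ∈ c.St)
    {x : Mt n F} {lam : Mt n F → F} (xe : x = ∑ f ∈ E, lam f • cj s f) {f0 : Mt n F} (h0 : f0 ∈ E)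
    {v : Vc n F} (hv : cj s f0 *ᵥ v = v) (h1 : c.hf v v = 1) :
    (∀ f ∈ E, Commute (cj s f) (vecMulVec v (c.bar v))) ∧ (∀ f ∈ E, f ≠ f0 → cj s f *ᵥ v = 0) ∧
      Commute x (vecMulVec v (c.bar v)) ∧ x *ᵥ v = lam f0 • v ∧
      ∀ w, c.hf (x *ᵥ w) v = lam f0 * c.hf w v := by
  have a : ∀ f ∈ E, f ≠ f0 → cj s f *ᵥ v = 0 := fun f hf ne => by
    rw [← hv, mulVec_mulVec, cj_mul, fam.orth f hf f0 h0 ne, cj_zero, zero_mulVec]
  have b : ∀ f ∈ E, Commute (cj s f) (vecMulVec v (c.bar v)) := fun f hf => by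
    have hst : c.st (cj s f) = cj s f := by rw [st_cj ka hu hs, sf hu f hf]
    by_cases e : f = f0
    · subst e
      obtain ⟨p, q⟩ := comm_fix ka hu hst hv hv
      exact p.trans q.symm
    · obtain ⟨p, q⟩ := comm_kill ka hu hst (a f hf e) (a f hf e)
      exact p.trans q.symm
  have d : Commute x (vecMulVec v (c.bar v)) := by
    rw [xe]; exact Commute.sum_left _ _ _ fun f hf => (b f hf).smul_left _
  have g : x *ᵥ v = lam f0 • v := by
    rw [xe, sum_mulVec, Finset.sum_eq_single f0, smul_mulVec, hv]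
    · intro f hf ne
      rw [smul_mulVec, a f hf ne, smul_zero]
    · exact fun h => absurd h0 h
  refine ⟨b, a, d, g, fun w => ?_⟩
  have := congrArg (· *ᵥ w) d.eq
  simp only [← mulVec_mulVec, ka.vec_ap, mulVec_smul, g, smul_smul] at this
  rw [mul_comm]
  exact (smul_left_injective F (ne_zero ka hu h1) this).symm

end

theorem comaU2 (hKA : KAStmt) (hKV : KVStmt) (hKW : KWStmt) (hSt : StabStmt) : ComaU2Stmt := by
  intro F _ _ _ n c r H Q loc hu hq E m s x lam e e1 e2 blk hrk hm cd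
  have ka := hKA F n c
  have kv := hKV F n c
  have kw := hKW F n c
  have fam := blk.fam
  have two := two_zero ka hu hq
  have es := blk.sf hu e cd.he
  have ee := fam.idem e cd.he
  have gs : ∀ f ∈ E, c.st (cj s f) = cj s f := fun f hf => by
    rw [st_cj ka hu cd.sS, blk.sf hu f hf]
  have gg : ∀ f ∈ E, cj s f * cj s f = cj s f := fun f hf => by rw [cj_mul, fam.idem f hf]
  have gsum : ∑ f ∈ E, cj s f = 1 := by rw [cj_sum, fam.sum, cj_one]
  have ne12 : e1 ≠ e2 := fun h => cd.ne (by rw [h])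
  obtain ⟨v1, ev1, gv1, n1⟩ := pick ka hu kw es ee (gs _ cd.h1) (gg _ cd.h1) (cd.cm e cd.he e1 cd.h1) cd.n1
  obtain ⟨v2, ev2, gv2, n2⟩ := pick ka hu kw es ee (gs _ cd.h2) (gg _ cd.h2) (cd.cm e cd.he e2 cd.h2) cd.n2
  obtain ⟨b1, a1, d1, x1, y1⟩ := eig ka hu fam blk.sf cd.sS cd.xe cd.h1 gv1 n1
  obtain ⟨b2, a2, d2, x2, y2⟩ := eig ka hu fam blk.sf cd.sS cd.xe cd.h2 gv2 n2
  have h12 : c.hf v1 v2 = 0 := by
    rw [← gv1, ka.hf_adj hu, gs _ cd.h1, a2 _ cd.h1 ne12, hf_zero ka hu]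
  have h21 : c.hf v2 v1 = 0 := by
    rw [← gv2, ka.hf_adj hu, gs _ cd.h2, a1 _ cd.h2 ne12.symm, hf_zero ka hu]
  have m2 : 2 ≤ m := by
    have := low ka hu e ![v1, v2] (fun j => by fin_cases j <;> simpa) (fun j k => by
      fin_cases j <;> fin_cases k <;> simpa)
    rwa [Fintype.card_fin, hrk e cd.he] at this
  set p1 := vecMulVec v1 (c.bar v1) with hp1
  set p2 := vecMulVec v2 (c.bar v2) with hp2
  have s1 : c.st p1 = p1 := ka.st_vec hu _ _
  have s2 : c.st p2 = p2 := ka.st_vec hu _ _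
  obtain ⟨ep1, pe1⟩ := comm_fix ka hu es ev1 ev1
  obtain ⟨ep2, pe2⟩ := comm_fix ka hu es ev2 ev2
  have p11 : p1 * p1 = p1 := by rw [hp1, mul_vecMulVec, ka.vec_ap, n1, one_smul]
  have p22 : p2 * p2 = p2 := by rw [hp2, mul_vecMulVec, ka.vec_ap, n2, one_smul]
  have p12 : p1 * p2 = 0 := by rw [hp2, mul_vecMulVec, ka.vec_ap, h21, zero_smul, zero_vecMulVec]
  have p21 : p2 * p1 = 0 := by rw [hp1, mul_vecMulVec, ka.vec_ap, h12, zero_smul, zero_vecMulVec]
  rw [← hp1] at ep1 pe1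
  rw [← hp2] at ep2 pe2
  set k := e - p1 - p2 with hk
  have ks : c.st k = k := by rw [hk, ka.st_sub hu, ka.st_sub hu, es, s1, s2]
  have kk : k * k = k := by
    simp only [hk, Matrix.mul_sub, Matrix.sub_mul, ee, ep1, pe1, ep2, pe2, p11, p22, p12, p21]
    abel
  have ek : e * k = k := by simp only [hk, Matrix.mul_sub, ee, ep1, ep2]
  have k0 : k ≠ 0 := fun h => by
    have h1 : e = p1 + p2 := by rw [hk, sub_sub, sub_eq_zero] at h; exact h
    have := rank_two v1 (c.bar v1) v2 (c.bar v2)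
    rw [← hp1, ← hp2, ← h1, hrk e cd.he] at this
    omega
  obtain ⟨e3, h3, n3'⟩ : ∃ f ∈ E, k * cj s f ≠ 0 := by
    by_contra h
    push Not at h
    exact k0 (by rw [← Matrix.mul_one k, ← gsum, Finset.mul_sum, Finset.sum_eq_zero h])
  obtain ⟨v3, kv3, gv3, n3⟩ := pick ka hu kw ks kk (gs _ h3) (gg _ h3)
    (((cd.cm e cd.he e3 h3).sub_left (b1 _ h3).symm).sub_left (b2 _ h3).symm) n3'
  obtain ⟨b3, a3, d3, x3, y3⟩ := eig ka hu fam blk.sf cd.sS cd.xe h3 gv3 n3
  have ev3 : e *ᵥ v3 = v3 := by rw [← kv3, mulVec_mulVec, ek]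
  have kv1 : k *ᵥ v1 = 0 := by
    simp only [hk, sub_mulVec, hp1, hp2, ka.vec_ap, ev1, n1, h12, one_smul, zero_smul, sub_self]
  have kv2 : k *ᵥ v2 = 0 := by
    simp only [hk, sub_mulVec, hp1, hp2, ka.vec_ap, ev2, n2, h21, one_smul, zero_smul, sub_zero,
      sub_self]
  have h31 : c.hf v3 v1 = 0 := by rw [← kv3, ka.hf_adj hu, ks, kv1, hf_zero ka hu]
  have h32 : c.hf v3 v2 = 0 := by rw [← kv3, ka.hf_adj hu, ks, kv2, hf_zero ka hu]
  have h13 : c.hf v1 v3 = 0 := by rw [← kv3, ← ks, ← ka.hf_adj hu, kv1, hf_zero' ka hu]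
  have h23 : c.hf v2 v3 = 0 := by rw [← kv3, ← ks, ← ka.hf_adj hu, kv2, hf_zero' ka hu]
  set p3 := vecMulVec v3 (c.bar v3) with hp3
  have s3 : c.st p3 = p3 := ka.st_vec hu _ _
  obtain ⟨θ, hθ⟩ := ka.th hu
  obtain ⟨g, gS, -, hg⟩ := kv.eich hu (v1 + v2) v3 θ
    (by simp only [ka.hf_add, ka.hf_add' hu, n1, n2, h12, h21]; linear_combination two)
    (by rw [ka.hf_add, h13, h23, add_zero]) (by rw [hθ, n3])
  have gSt : g ∈ c.St := ((ka.mem_S g).1 gS).1
  have fixg : ∀ M : Mt n F, c.st M = M → M *ᵥ v1 = v1 → M *ᵥ v2 = v2 → M *ᵥ v3 = v3 →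
      M * g = g * M := fun M hM u1 u2 u3 => by
    have u0 : M *ᵥ (v1 + v2) = v1 + v2 := by rw [mulVec_add, u1, u2]
    obtain ⟨t1, t2⟩ := comm_fix ka hu hM u0 u3
    obtain ⟨t3, t4⟩ := comm_fix ka hu hM u3 u0
    obtain ⟨t5, t6⟩ := comm_fix ka hu hM u0 u0
    simp only [hg, Matrix.mul_sub, Matrix.sub_mul, Matrix.mul_add, Matrix.add_mul, Matrix.mul_smul,
      Matrix.smul_mul, Matrix.mul_one, Matrix.one_mul, t1, t2, t3, t4, t5, t6]
  have killg : ∀ M : Mt n F, c.st M = M → M *ᵥ v1 = 0 → M *ᵥ v2 = 0 → M *ᵥ v3 = 0 →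
      M * g = M ∧ g * M = M := fun M hM u1 u2 u3 => by
    have u0 : M *ᵥ (v1 + v2) = 0 := by rw [mulVec_add, u1, u2, add_zero]
    obtain ⟨t1, t2⟩ := comm_kill ka hu hM u0 u3
    obtain ⟨t3, t4⟩ := comm_kill ka hu hM u3 u0
    obtain ⟨t5, t6⟩ := comm_kill ka hu hM u0 u0
    simp only [hg, Matrix.mul_sub, Matrix.sub_mul, Matrix.mul_add, Matrix.add_mul, Matrix.mul_smul,
      Matrix.smul_mul, Matrix.mul_one, Matrix.one_mul, t1, t2, t3, t4, t5, t6, smul_zero, sub_zero,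
      add_zero, and_self]
  have gH : g ∈ c.hat H := hSt F n c r H Q loc E blk g gS fun f hf => by
    have h : f * g = g * f := by
      by_cases h : f = e
      · subst h; exact fixg f es ev1 ev2 ev3
      · have t : ∀ v, e *ᵥ v = v → f *ᵥ v = 0 := fun v hv => by
          rw [← hv, mulVec_mulVec, fam.orth f hf e cd.he h, zero_mulVec]
        obtain ⟨t1, t2⟩ := killg f (blk.sf hu f hf) (t _ ev1) (t _ ev2) (t _ ev3)
        exact t1.trans t2.symm
    rw [cj, ← h, Matrix.mul_assoc, Units.mul_inv, Matrix.mul_one]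
    exact hf
  obtain ⟨mu, hmu⟩ := cd.z g⁻¹ (inv_mem gH)
  set X1 : Mt n F := ((g⁻¹ : Gl n F) : Mt n F) * x * g with hX1
  set Z : Mt n F := ∑ f ∈ E, mu f • cj s f with hZ
  have hc : Z * X1 * x = x * X1 := by
    have : ⁅x, g⁻¹ * x * g⁻¹⁻¹⁆ * (g⁻¹ * x * g) * x = x * (g⁻¹ * x * g) := by
      rw [commutatorElement_def]; group
    have h2 := congrArg (fun u : Gl n F => (u : Mt n F)) this
    simp only [Units.val_mul] at h2
    rw [← hmu]
    exact h2
  by_cases hall : ∀ f ∈ E, mu f = 1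
  · have Z1 : Z = 1 := by
      rw [hZ, ← gsum]; exact Finset.sum_congr rfl fun f hf => by rw [hall f hf, one_smul]
    rw [Z1, Matrix.one_mul] at hc
    have van : ∀ (u w : Vc n F) (l l' : F), l ≠ l' → (x : Mt n F) *ᵥ u = l • u →
        (∀ t, c.hf ((x : Mt n F) *ᵥ t) w = l' * c.hf t w) →
        c.hf ((x : Mt n F) *ᵥ ((g : Mt n F) *ᵥ u)) ((g : Mt n F) *ᵥ w) = 0 := by
      intro u w l l' ne xu xw
      have t := congrArg (fun M : Mt n F => c.hf (M *ᵥ u) w) hc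
      simp only [← mulVec_mulVec _ X1, ← mulVec_mulVec _ (x : Mt n F), xu, xw, mulVec_smul,
        ka.hf_smul] at t
      have t2 : c.hf (X1 *ᵥ u) w = 0 := by
        by_contra h
        exact ne (mul_right_cancel₀ h t)
      rwa [hX1, ← mulVec_mulVec, ← mulVec_mulVec, ka.hf_adj hu, st_St' ka hu gSt] at t2
    have g1 : (g : Mt n F) *ᵥ v1 = (1 - θ) • v1 + (-θ) • v2 + (-1 : F) • v3 := by
      simp only [hg, sub_mulVec, add_mulVec, smul_mulVec, one_mulVec, ka.vec_ap, ka.hf_add' hu, n1,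
        h12, h13]
      module
    have g2 : (g : Mt n F) *ᵥ v2 = (-θ) • v1 + (1 - θ) • v2 + (-1 : F) • v3 := by
      simp only [hg, sub_mulVec, add_mulVec, smul_mulVec, one_mulVec, ka.vec_ap, ka.hf_add' hu, n2,
        h21, h23]
      module
    have t1 := van v2 v1 _ _ cd.ne.symm x2 y1
    have t2 := van v1 v2 _ _ cd.ne x1 y2
    simp only [g1, g2, ka.hf_add' hu, ka.hf_smul', y1, y2, y3, ka.hf_add, ka.hf_smul, n1, n2, n3,
      h12, h13, h21, h23, h31, h32, hq] at t1 t2 hθ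
    exact cd.ne (by
      linear_combination t1 - t2 - (lam e1 - lam e2) * hθ + (lam e1 - lam e2) * θ * two)
  push Not at hall
  obtain ⟨f, hf, hf1⟩ := hall
  set k' : Mt n F := 1 - p1 - p2 - p3 with hk'
  have ks' : c.st k' = k' := by
    rw [hk', ka.st_sub hu, ka.st_sub hu, ka.st_sub hu, ka.st_one, s1, s2, s3]
  obtain ⟨t1, t2⟩ := killg k' ks'
    (by simp only [hk', sub_mulVec, one_mulVec, hp1, hp2, hp3, ka.vec_ap, n1, h12, h13]; module)
    (by simp only [hk', sub_mulVec, one_mulVec, hp1, hp2, hp3, ka.vec_ap, n2, h21, h23]; module)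
    (by simp only [hk', sub_mulVec, one_mulVec, hp1, hp2, hp3, ka.vec_ap, n3, h31, h32]; module)
  have xk : (x : Mt n F) * k' = k' * x :=
    ((((Commute.one_right _).sub_right d1).sub_right d2).sub_right d3).eq
  have t3 : ((g⁻¹ : Gl n F) : Mt n F) * k' = k' := by
    rw [← t2, Units.inv_mul_cancel_left, t2]
  have t4 : X1 * k' = k' * x := by
    rw [hX1, Matrix.mul_assoc, t2, Matrix.mul_assoc, xk, ← Matrix.mul_assoc, t3]
  have t5 : Z * k' = k' := by
    have h1 : Z * k' * x * x = k' * x * x := by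
      calc Z * k' * x * x = Z * (X1 * k') * x := by rw [t4, Matrix.mul_assoc Z]
        _ = Z * X1 * x * k' := by simp only [Matrix.mul_assoc, xk]
        _ = x * (k' * x) := by rw [hc, Matrix.mul_assoc, t4]
        _ = _ := by rw [← Matrix.mul_assoc, xk]
    exact (Units.mul_left_inj x).1 ((Units.mul_left_inj x).1 h1)
  have t6 : cj s f * Z = mu f • cj s f := by
    rw [hZ, Finset.mul_sum, Finset.sum_eq_single f, Matrix.mul_smul, gg f hf]
    · intro f' hf' ne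
      rw [Matrix.mul_smul, cj_mul, fam.orth f hf f' hf' ne.symm, cj_zero, smul_zero]
    · exact fun h => absurd hf h
  have t7 : cj s f * k' = 0 := by
    have h1 : (mu f - 1) • (cj s f * k') = 0 := by
      rw [sub_smul, one_smul, ← Matrix.smul_mul, ← t6, Matrix.mul_assoc, t5, sub_self]
    exact (smul_eq_zero.1 h1).resolve_left (sub_ne_zero.2 hf1)
  have t8 : cj s f = cj s f * p1 + cj s f * p2 + cj s f * p3 := by
    rw [hk', Matrix.mul_sub, Matrix.mul_sub, Matrix.mul_sub, Matrix.mul_one, sub_sub, sub_sub,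
      sub_eq_zero, ← add_assoc] at t7
    exact t7
  have t9 : (cj s f).rank ≤ 2 := by
    rw [t8, hp1, hp2, hp3, mul_vecMulVec, mul_vecMulVec, mul_vecMulVec]
    by_cases h : f = e1
    · rw [a2 f hf (h ▸ ne12), zero_vecMulVec, add_zero]; exact rank_two _ _ _ _
    · rw [a1 f hf h, zero_vecMulVec, zero_add]; exact rank_two _ _ _ _
  rw [cj_rank, hrk f hf] at t9
  omega

end Cfsg.Agent.H97.Sw
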