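import Cfsg.Agent.H58.SWDefs

set_option autoImplicit false
set_option linter.unusedSectionVars false
open Matrix Cfsg
open scoped commutatorElement

namespace Cfsg.Agent.H97.Sw

open Cfsg.Agent.H58.SW

variable {F : Type} [Field F] [Fintype F] [DecidableEq F] {n : ℕ}

theorem rank_two (a b a' b' : Vc n F) : (vecMulVec a b + vecMulVec a' b').rank ≤ 2 := by
  have : vecMulVec a b + vecMulVec a' b' =
      (Matrix.of fun i (j : Fin 2) => ![a, a'] j i) * (Matrix.of ![b, b']) := by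
    ext i j
    simp [Matrix.mul_apply, vecMulVec_apply, Fin.sum_univ_two]
  rw [this]
  exact (rank_mul_le_left _ _).trans (rank_le_width _)

theorem cj_mul (s : Gl n F) (x y : Mt n F) : cj s x * cj s y = cj s (x * y) := by
  simp only [cj, Matrix.mul_assoc, Units.inv_mul_cancel_left]

theorem cj_one (s : Gl n F) : cj s 1 = 1 := by simp [cj]

theorem cj_zero (s : Gl n F) : cj s 0 = 0 := by simp [cj]

theorem cj_sum {ι : Type} (s : Gl n F) (T : Finset ι) (f : ι → Mt n F) :
    ∑ i ∈ T, cj s (f i) = cj s (∑ i ∈ T, f i) := by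
  simp only [cj, Finset.mul_sum, Finset.sum_mul]

theorem cj_rank (s : Gl n F) (x : Mt n F) : (cj s x).rank = x.rank := by
  rw [cj, rank_mul_eq_left_of_isUnit_det _ _ (Matrix.isUnits_det_units _),
    rank_mul_eq_right_of_isUnit_det _ _ (Matrix.isUnits_det_units _)]

theorem cj_inj (s : Gl n F) {x y : Mt n F} (h : cj s x = cj s y) : x = y := by
  have := congrArg (cj s⁻¹) h
  simpa [cj, Matrix.mul_assoc] using this

theorem cj_cj (s t : Gl n F) (x : Mt n F) : cj s (cj t x) = cj (s * t) x := by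
  simp only [cj, Matrix.mul_assoc, Units.val_mul, _root_.mul_inv_rev]

variable {c : Cl F n} (ka : KA c) (hu : c.u = true)
include ka hu

theorem st_St {s : Gl n F} (hs : s ∈ c.St) : c.st s = ((s⁻¹ : Gl n F) : Mt n F) := by
  have := (ka.mem_St s).1 hs hu
  calc c.st s = c.st s * (s : Mt n F) * ((s⁻¹ : Gl n F) : Mt n F) := by
        rw [Matrix.mul_assoc, Units.mul_inv, Matrix.mul_one]
    _ = _ := by rw [this, Matrix.one_mul]

theorem st_St' {s : Gl n F} (hs : s ∈ c.St) : c.st ((s⁻¹ : Gl n F) : Mt n F) = s := by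
  rw [← st_St ka hu hs, ka.st_st hu]

theorem st_cj {s : Gl n F} (hs : s ∈ c.St) (x : Mt n F) : c.st (cj s x) = cj s (c.st x) := by
  rw [cj, ka.st_mul hu, ka.st_mul hu, st_St' ka hu hs, st_St ka hu hs, cj, Matrix.mul_assoc]

theorem vec_mul (v w : Vc n F) (M : Mt n F) :
    vecMulVec v (c.bar w) * M = vecMulVec v (c.bar (c.st M *ᵥ w)) := by
  rw [← ka.st_vec hu (c.st M *ᵥ w) v, ← mul_vecMulVec, ka.st_mul hu, ka.st_st hu, ka.st_vec hu]

theorem bar_zero : c.bar (0 : Vc n F) = 0 := by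
  funext i
  have := ka.two_le
  simp only [Cl.bar, Pi.zero_apply]
  exact zero_pow (by omega)

theorem hf_zero (v : Vc n F) : c.hf v 0 = 0 := by
  have := ka.hf_add' hu v 0 0
  rw [add_zero] at this
  exact left_eq_add.1 this

theorem hf_zero' (v : Vc n F) : c.hf 0 v = 0 := by
  have := ka.hf_add 0 0 v
  rw [add_zero] at this
  exact left_eq_add.1 this

theorem ne_zero {v : Vc n F} (h : c.hf v v = 1) : v ≠ 0 := fun e => by
  rw [e, hf_zero ka hu] at h; exact zero_ne_one h

theorem low {ι : Type} [Fintype ι] [DecidableEq ι] (e : Mt n F) (v : ι → Vc n F)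
    (h1 : ∀ j, e *ᵥ v j = v j) (h2 : ∀ j k, c.hf (v j) (v k) = if j = k then 1 else 0) :
    Fintype.card ι ≤ e.rank := by
  have : (Matrix.of fun j i => c.bar (v j) i) * (e * Matrix.of fun i k => v k i) = 1 := by
    ext j k
    have h3 : ∀ i, (e * Matrix.of fun i k => v k i) i k = v k i := fun i => congrFun (h1 k) i
    rw [Matrix.mul_apply, Matrix.one_apply]
    simp only [h3, of_apply]
    have := h2 k j
    rw [Cl.hf, hermForm] at this
    simp only [Cl.bar, mul_comm _ (v k _), this, eq_comm]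
  rw [← rank_one (R := F), ← this]
  exact (rank_mul_le_right _ _).trans (rank_mul_le_left _ _)

theorem comm_fix {M : Mt n F} (hM : c.st M = M) {v w : Vc n F} (hv : M *ᵥ v = v) (hw : M *ᵥ w = w) :
    M * vecMulVec v (c.bar w) = vecMulVec v (c.bar w) ∧
      vecMulVec v (c.bar w) * M = vecMulVec v (c.bar w) := by
  rw [mul_vecMulVec, vec_mul ka hu, hM, hv, hw]; exact ⟨rfl, rfl⟩

theorem comm_kill {M : Mt n F} (hM : c.st M = M) {v w : Vc n F} (hv : M *ᵥ v = 0)
    (hw : M *ᵥ w = 0) : M * vecMulVec v (c.bar w) = 0 ∧ vecMulVec v (c.bar w) * M = 0 := by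
  rw [mul_vecMulVec, vec_mul ka hu, hM, hv, hw, bar_zero ka hu]
  exact ⟨zero_vecMulVec _, by ext i j; simp [vecMulVec_apply]⟩

theorem pick (kw : KW c) {k g : Mt n F} (hk : c.st k = k) (kk : k * k = k) (hg : c.st g = g)
    (gg : g * g = g) (h : Commute k g) (h0 : k * g ≠ 0) :
    ∃ v, k *ᵥ v = v ∧ g *ᵥ v = v ∧ c.hf v v = 1 := by
  obtain ⟨v, h1, h2⟩ := kw.nrm hu (k * g) (by rw [ka.st_mul hu, hk, hg, h.eq])
    (by rw [h.symm.mul_mul_mul_comm, kk, gg]) h0
  refine ⟨v, ?_, ?_, h2⟩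
  · rw [← h1, mulVec_mulVec, ← Matrix.mul_assoc, kk]
  · rw [← h1, mulVec_mulVec, h.eq, ← Matrix.mul_assoc, gg]

theorem two_zero (hq : c.q = 2) : (2 : F) = 0 := by
  have h := ka.fr_add hu 1 1
  rw [hq] at h
  linear_combination h

end Cfsg.Agent.H97.Sw
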