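import Cfsg.Agent.H97.SwKit

set_option autoImplicit false
set_option linter.unusedSectionVars false
open Matrix Cfsg
open scoped commutatorElement

namespace Cfsg.Agent.H97.Sw

open Cfsg.Agent.H58.SW

section
variable {F : Type} [Field F] [Fintype F] [DecidableEq F] {n : ℕ}

/-- the diagonal matrix unit -/
def un (i : Fin n) : Mt n F := Matrix.diagonal (Pi.single i 1)

theorem un_inj {i j : Fin n} (h : (un i : Mt n F) = un j) : i = j := by
  by_contra ne
  have := congrFun (congrFun h i) i
  simp [un, Pi.single_eq_of_ne ne] at this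

theorem un_mul (i j : Fin n) : (un i : Mt n F) * un j = if i = j then un i else 0 := by
  rw [un, un, diagonal_mul_diagonal]
  split_ifs with h
  · subst h; congr 1; funext l; by_cases e : l = i <;> simp [e]
  · rw [← diagonal_zero]; congr 1; funext l
    by_cases e : l = i
    · subst e; simp [Pi.single_eq_of_ne h]
    · simp [e]

theorem un_sum : ∑ i, (un i : Mt n F) = 1 := by
  ext i j
  rw [Matrix.sum_apply]
  simp only [un, diagonal_apply, Matrix.one_apply]
  split_ifs with h
  · simp [Pi.single_apply]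
  · simp

theorem swap_diag (i k : Fin n) (d : Fin n → F) :
    cj (GeneralLinearGroup.swap F i k) (diagonal d) = diagonal (fun l => d (Equiv.swap i k l)) := by
  change Matrix.swap F i k * diagonal d * Matrix.swap F i k = _
  rw [Matrix.swap, PEquiv.toMatrix_toPEquiv_mul, PEquiv.mul_toMatrix_toPEquiv]
  ext a b
  simp [diagonal_apply]

variable {c : Cl F n} (ka : KA c) (kt : KT c) (hu : c.u = true) (hq : c.q = 2)
include ka hu hq

theorem cube {a : F} (h : a ≠ 0) : a * a ^ c.q = 1 := by
  have h1 := FiniteField.pow_card_sub_one_eq_one a h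
  rw [c.hq, if_pos hu, hq] at h1
  rw [hq, ← h1]; ring

theorem vec_single (i : Fin n) {a : F} (h : a ≠ 0) :
    vecMulVec (Pi.single i a) (c.bar (Pi.single i a)) = un i := by
  ext j k
  simp only [vecMulVec_apply, Cl.bar, un, diagonal_apply]
  by_cases e : j = i
  · subst e
    by_cases e' : k = j
    · subst e'; simp [cube ka hu hq h]
    · simp [e', Ne.symm e', hq]
  · by_cases e' : j = k
    · subst e'; simp [e]
    · simp [e, e']

include kt in
theorem cj_vec {a : Gl n F} (ha : a ∈ c.St) (v w : Vc n F) : cj a (vecMulVec v (c.bar w)) =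
    vecMulVec ((a : Mt n F) *ᵥ v) (c.bar ((a : Mt n F) *ᵥ w)) := by
  rw [cj, mul_vecMulVec, vec_mul ka hu, st_St' ka hu ha]

theorem hf_St {a : Gl n F} (ha : a ∈ c.St) (v w : Vc n F) :
    c.hf ((a : Mt n F) *ᵥ v) ((a : Mt n F) *ᵥ w) = c.hf v w := by
  rw [ka.hf_adj hu, mulVec_mulVec, (ka.mem_St a).1 ha hu, one_mulVec]

include kt in
theorem key {a : Gl n F} (ha : a ∈ c.St) {β : Fin n → Mt n F} {e : Mt n F} (he : e = cj a (dg β e))
    (h2 : (Finset.univ.filter (fun i => β i = e)).card = 2) {v : Vc n F} (hv : e *ᵥ v = v)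
    (h1 : c.hf v v = 1) : ∃ i, vecMulVec v (c.bar v) = cj a (un i) := by
  obtain ⟨i, j, ij, hij⟩ := Finset.card_eq_two.1 h2
  set u := ((a⁻¹ : Gl n F) : Mt n F) *ᵥ v with hu'
  have e1 : (a : Mt n F) *ᵥ u = v := by rw [hu', mulVec_mulVec, Units.mul_inv, one_mulVec]
  have e2 : dg β e *ᵥ u = u := by
    conv_rhs => rw [hu', ← hv, he, cj, mulVec_mulVec, Matrix.mul_assoc, Units.inv_mul_cancel_left,
      ← mulVec_mulVec]
  have e3 : ∀ l, l ≠ i → l ≠ j → u l = 0 := fun l li lj => by
    have : ¬ β l = e := fun h => by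
      have : l ∈ Finset.univ.filter (fun i => β i = e) := by simp [h]
      rw [hij] at this
      simp [li, lj] at this
    rw [← congrFun e2 l, dg, mulVec_diagonal, if_neg this, zero_mul]
  have e4 : u i * u i ^ c.q + u j * u j ^ c.q = 1 := by
    rw [← e1, hf_St ka hu hq ha, Cl.hf, hermForm] at h1
    rw [← h1, Finset.sum_eq_add_of_mem i j (Finset.mem_univ _) (Finset.mem_univ _) ij]
    intro l _ h
    rw [e3 l h.1 h.2, zero_mul]
  have fin : ∀ l, u l ≠ 0 → (∀ l', l' ≠ l → u l' = 0) → ∃ i, vecMulVec v (c.bar v) = cj a (un i) := by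
    intro l h0 h
    have : u = Pi.single l (u l) := funext fun l' => by
      by_cases t : l' = l
      · rw [t, Pi.single_eq_same]
      · rw [h l' t, Pi.single_eq_of_ne t]
    exact ⟨l, by rw [← vec_single ka hu hq l h0, ← this, cj_vec ka kt hu hq ha, e1]⟩
  by_cases hi : u i = 0
  · refine fin j (fun hj => ?_) fun l t => ?_
    · rw [hi, hj, zero_mul, add_zero] at e4; exact zero_ne_one e4
    · by_cases t' : l = i
      · rw [t', hi]
      · exact e3 l t' t
  · by_cases hj : u j = 0
    · refine fin i hi fun l t => ?_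
      by_cases t' : l = j
      · rw [t', hj]
      · exact e3 l t t'
    · rw [cube ka hu hq hi, cube ka hu hq hj] at e4
      exact absurd (by linear_combination e4) (one_ne_zero (α := F))

end

theorem u22 (hKA : KAStmt) (hKT : KTStmt) (hFr : FrameStmt) (hSt : StabStmt) : U22Stmt := by
  intro F _ _ _ n c r H Q loc hu hq E blk hrk
  have ka := hKA F n c
  have kt := hKT F n c
  have fam := blk.fam
  have two := two_zero ka hu hq
  obtain ⟨a, ha, β, hβ, fr⟩ := hFr F n c E fam blk.sf
  let E' : Finset (Mt n F) := Finset.univ.image fun i => cj a (un i)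
  have mem : ∀ {x}, x ∈ E' ↔ ∃ i, cj a (un i) = x := by simp [E']
  have inj : Function.Injective fun i : Fin n => cj a (un i : Mt n F) := fun i j h =>
    un_inj (cj_inj a h)
  have blk' : Blk c H E' := by
    refine ⟨⟨?_, ?_, ?_, ?_⟩, ?_, ?_, ?_⟩
    · intro x hx
      obtain ⟨i, rfl⟩ := mem.1 hx
      rw [cj_mul, un_mul, if_pos rfl]
    · intro x hx h
      obtain ⟨i, rfl⟩ := mem.1 hx
      have := congrFun (congrFun (cj_inj a (h.trans (cj_zero a).symm)) i) i
      simp [un] at this
    · intro x hx y hy ne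
      obtain ⟨i, rfl⟩ := mem.1 hx
      obtain ⟨j, rfl⟩ := mem.1 hy
      rw [cj_mul, un_mul, if_neg (fun h => ne (by rw [h])), cj_zero]
    · rw [Finset.sum_image fun i _ j _ h => inj h, cj_sum, un_sum, cj_one]
    · intro _ x hx
      obtain ⟨i, rfl⟩ := mem.1 hx
      rw [st_cj ka hu ha, ← vec_single ka hu hq i one_ne_zero, ka.st_vec hu]
    · intro ψ hψ t ht x hx
      obtain ⟨i, rfl⟩ := mem.1 hx
      have tn : t.neg = false := by
        by_contra h
        have := (ht.2.1 (by simpa using h)).1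
        rw [hu] at this; exact absurd this (by decide)
      set v := (a : Mt n F) *ᵥ Pi.single i 1 with hv
      have h1 : c.hf v v = 1 := by
        rw [hv, hf_St ka hu hq ha, Cl.hf, hermForm, Finset.sum_eq_single i] <;> simp +contextual
      have h2 : β i *ᵥ v = v := by
        rw [(fr _ (hβ i)).1, hv, cj, mulVec_mulVec, Units.inv_mul_cancel_right, ← mulVec_mulVec]
        congr 1
        funext l
        rw [dg, mulVec_diagonal]
        by_cases e : l = i
        · rw [e, if_pos rfl, one_mul]
        · rw [Pi.single_eq_of_ne e, mul_zero]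
      have h3 : t.ap (β i) ∈ E := blk.inv ψ hψ t ht _ (hβ i)
      obtain ⟨j, hj⟩ := key ka kt hu hq ha (fr _ h3).1 ((fr _ h3).2.trans (hrk _ h3))
        (v := t.av v) (by rw [kt.vec t tn, h2]) (by rw [kt.hf t ψ ht hu, h1, map_one])
      rw [← vec_single ka hu hq i one_ne_zero, cj_vec ka kt hu hq ha, ← hv, kt.stv t ψ ht hu, hj]
      exact mem.2 ⟨j, rfl⟩
    · rw [Finset.card_image_of_injective _ inj, Finset.card_univ, Fintype.card_fin]
      exact c.hn
  obtain ⟨e, he, e', he', ne⟩ := Finset.one_lt_card.1 blk.two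
  obtain ⟨i, j, ij, hij⟩ := Finset.card_eq_two.1 ((fr e he).2.trans (hrk e he))
  obtain ⟨k, k', -, hk⟩ := Finset.card_eq_two.1 ((fr e' he').2.trans (hrk e' he'))
  have hm : ∀ {l : Fin n} {x : Mt n F}, l ∈ Finset.univ.filter (fun i => β i = x) → β l = x :=
    fun h => (Finset.mem_filter.1 h).2
  have bi : β i = e := hm (by rw [hij]; simp)
  have bj : β j = e := hm (by rw [hij]; simp)
  have bk : β k = e' := hm (by rw [hk]; simp)
  set P := GeneralLinearGroup.swap F i k with hP
  have PS : P ∈ c.S := by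
    refine (ka.mem_S P).2 ⟨(ka.mem_St P).2 fun _ => ?_, ?_⟩
    · have : c.st P = Matrix.swap F i k := by
        rw [← transpose_swap]
        ext p q
        simp [hP, Cl.st, GeneralLinearGroup.swap, Matrix.swap, PEquiv.toMatrix_apply, hq]
      rw [this]; exact swap_mul_self i k
    · have h1 : (P : Mt n F).det * (P : Mt n F).det = 1 := by
        rw [← det_mul]; exact (congrArg det (swap_mul_self i k)).trans det_one
      have h2 : ((P : Mt n F).det - 1) ^ 2 = 0 := by
        linear_combination h1 + (1 - (P : Mt n F).det) * two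
      exact sub_eq_zero.1 (pow_eq_zero_iff two_ne_zero |>.1 h2)
  have gS : a * P * a⁻¹ ∈ c.S := by
    obtain ⟨p1, p2⟩ := (ka.mem_S P).1 PS
    refine (ka.mem_S _).2 ⟨mul_mem (mul_mem ha p1) (inv_mem ha), ?_⟩
    rw [Units.val_mul, Units.val_mul, det_units_conj, p2]
  have act : ∀ d : Fin n → F, cj (a * P * a⁻¹) (cj a (diagonal d)) =
      cj a (diagonal fun l => d (Equiv.swap i k l)) := fun d => by
    rw [cj_cj, inv_mul_cancel_right, ← cj_cj, hP, swap_diag]
  have gH := hSt F n c r H Q loc E' blk' _ gS fun x hx => by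
    obtain ⟨l, rfl⟩ := mem.1 hx
    refine mem.2 ⟨Equiv.swap i k l, ?_⟩
    rw [un, un, act]
    congr 2
    funext l'
    simp only [Pi.single_apply, Equiv.swap_apply_eq_iff]
  have h3 : cj (a * P * a⁻¹) e ∈ E := kt.hatM H _ blk.inv _ gH e he
  have h4 := (fr _ h3).1
  generalize hx : cj (a * P * a⁻¹) e = e3 at h3 h4
  rw [(fr e he).1, dg, act, h4] at hx
  have h5 := fun l => congrFun (congrFun (cj_inj a hx) l) l
  simp only [dg, diagonal_apply_eq] at h5
  have jk : j ≠ k := fun h => ne (by rw [← bj, h, bk])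
  have t1 := h5 j
  have t2 := h5 k
  rw [Equiv.swap_apply_of_ne_of_ne ij.symm jk, if_pos bj] at t1
  rw [Equiv.swap_apply_right, if_pos bi] at t2
  have u1 : β j = e3 := by by_contra h; rw [if_neg h] at t1; exact one_ne_zero t1
  have u2 : β k = e3 := by by_contra h; rw [if_neg h] at t2; exact one_ne_zero t2
  exact ne (by rw [← bj, u1, ← u2, bk])

end Cfsg.Agent.H97.Sw
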