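import Cfsg.Agent.H97.U4U
import Cfsg.Agent.H97.U5Defs
import Cfsg.Agent.H28.Act

/-!
Saturated fusion systems over the Sylow `p`-subgroup `U T` of `PSU₄(q)`: the spaces `W = Q / Z` and
`V = J`, and the interfaces between the parts of the proof.
-/

set_option autoImplicit false

namespace Cfsg.Agent.H97.U4

open Cfsg.Agent.H97 Subgroup
open Cfsg.Agent.H96.VB hiding LA LB
open Cfsg.Agent.H97.U5 (Hm Cp)
open scoped commutatorElement

universe u

/-- The automorphisms induced by `G` form a Sylow `p`-subgroup of `A`. -/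
structure LA0 {G : Type u} [Group G] (p : ℕ) (N : Subgroup G) (A : Subgroup (MulAut N)) : Prop where
  cj : ∀ (s : G) (α : MulAut N), (∀ x ∈ N, ext α x = s * x * s⁻¹) → α ∈ A
  syl : ∀ M : Subgroup (MulAut N), M ≤ A → IsPGroup p M →
    (∀ (s : G) (α : MulAut N), (∀ x ∈ N, ext α x = s * x * s⁻¹) → α ∈ M) →
    ∀ α ∈ M, ∃ s : G, ∀ x ∈ N, ext α x = s * x * s⁻¹

/-- The Chevalley–Warning theorem for a system of quadratic equations. -/
def CWStmt (p : ℕ) : Prop := ∀ (A B : Type u) [AddCommGroup A] [AddCommGroup B] [Finite A] [Finite B],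
  (∀ x : A, p • x = 0) → (∀ x : B, p • x = 0) → ∀ (L : A →+ B) (β : A →+ A →+ B),
    Nat.card B ^ 2 < Nat.card A → ∃ t, t ≠ 0 ∧ L t + β t t = 0

variable {K : Type u} [Field K] (T : Hm K) (p : ℕ)

/-- the fixed field has more than two elements -/
def Mid : Prop := ∃ f, T.σ f = f ∧ f ≠ 0 ∧ f ≠ 1

/-- the fixed field has more than three elements -/
def Big : Prop := ∀ a b c : K, ∃ f, T.σ f = f ∧ f ≠ a ∧ f ≠ b ∧ f ≠ c

/-- the fixed field is the prime field -/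
def Pri : Prop := ∀ f, T.σ f = f → ∃ n : ℕ, f = n

theorem Big.mid {T : Hm K} (h : Big T) : Mid T :=
  let ⟨f, h1, h2, h3, _⟩ := h 0 1 1
  ⟨f, h1, h2, h3⟩

theorem Big.unit {T : Hm K} (h : Big T) : ∃ c : Kˣ, T.σ c = c ∧ (c : K) ^ 2 ≠ 1 :=
  let ⟨f, h1, h2, h3, h4⟩ := h 0 1 (-1)
  ⟨Units.mk0 f h2, h1, fun e => (sq_eq_one_iff.1 e).elim h3 h4⟩

/-- the skew elements -/
def sk : AddSubgroup K where
  carrier := {x | x + T.σ x = 0}
  zero_mem' := by simp
  add_mem' := fun {a b} (h : _ = _) (e : _ = _) => by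
    change _ = _
    rw [map_add]; linear_combination h + e
  neg_mem' := fun {a} (h : _ = _) => by
    change _ = _
    rw [map_neg]; linear_combination -h

theorem mem_sk {x : K} : x ∈ sk T ↔ x + T.σ x = 0 := Iff.rfl

/-- an element with prescribed `x - x̄` and `ω x - (ω x)‾` -/
theorem exists_sk2 {a b : K} (ha : a + T.σ a = 0) (hb : b + T.σ b = 0) :
    ∃ x, x - T.σ x = a ∧ T.om * x - T.σ (T.om * x) = b := by
  have h := T.ep_ne
  have e : T.om = T.ep + T.σ T.om := by simp [Hm.ep]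
  have ea : T.σ a = -a := by linear_combination ha
  have eb : T.σ b = -b := by linear_combination hb
  refine ⟨(b - T.σ T.om * a) / T.ep, ?_, ?_⟩ <;>
    simp only [map_div₀, map_sub, map_mul, T.inv, T.σ_ep, ea, eb] <;> field_simp
  · linear_combination a * e
  · linear_combination b * e

theorem card_sk : Nat.card (sk T) ^ 2 = Nat.card K := by
  rw [sq, ← Nat.card_prod]
  refine (Nat.card_eq_of_bijective (fun x : K => ((⟨x - T.σ x, by simp [mem_sk]⟩ : sk T),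
    (⟨T.om * x - T.σ (T.om * x), by simp [mem_sk]⟩ : sk T))) ⟨fun x y h => ?_, fun z => ?_⟩).symm
  · simp only [Prod.mk.injEq, Subtype.mk.injEq, map_mul] at h
    refine mul_left_cancel₀ T.ep_ne ?_
    simp only [Hm.ep]
    linear_combination h.2 - T.σ T.om * h.1
  · obtain ⟨x, h1, h2⟩ := exists_sk2 T z.1.2 z.2.2
    exact ⟨x, Prod.ext (Subtype.ext h1) (Subtype.ext h2)⟩

/-- the additive retraction onto the skew elements -/
noncomputable def pr (x : K) : K := x - (x + T.σ x) * T.hf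

theorem pr_sk (x : K) : pr T x + T.σ (pr T x) = 0 := by
  simp only [pr, map_sub, map_mul, map_add, T.inv]; linear_combination -(x + T.σ x) * T.hf_add

theorem pr_add (x y : K) : pr T (x + y) = pr T x + pr T y := by simp only [pr, map_add]; ring

theorem pr_eq {x : K} (h : x + T.σ x = 0) : pr T x = x := by simp [pr, h]

/-! ### Part A: the essential subgroups -/

def A2Stmt : Prop := ∀ P : Subgroup (U T), Cp p P → ¬ P ≤ J T → Z2 T ≤ P

def A3Stmt : Prop := ∀ P : Subgroup (U T), Cp p P → ¬ P ≤ J T → Z2 T ≤ P →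
  P = Q T ∨ ((2 : K) = 0 ∧ ∃ t, t ≠ 0 ∧ P = Pt T t)

/-- The subgroups `Pt t` in characteristic two. -/
def A4Stmt : Prop := (2 : K) = 0 → ∀ t, t ≠ 0 → Ch (Pt T t) (J T) ∧ (Mid T → ¬ Cp p (Pt T t))

def ChSStmt : Prop := ∀ β : MulAut (U T), (∀ g ∈ Q T, β g ∈ Q T) ∧ (∀ g ∈ J T, β g ∈ J T) ∧
  (∀ g ∈ Z2 T, β g ∈ Z2 T) ∧ ∀ g ∈ Z T, β g ∈ Z T

def ASStmt : Prop := Mid T → ∀ C : Subgroup (MulAut (U T)), (∀ s, MulAut.conj s ∈ C) →
  ¬ p ∣ (MulAut.conj : U T →* MulAut (U T)).range.relIndex C →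
  ∃ (β : MulAut (U T)) (L : Subgroup (MulAut (U T))), L ≤ Lam T ∧
    ¬ p ∣ Nat.card L ∧ ∀ γ, β * γ * β⁻¹ ∈ C ↔ ∃ s, ∃ l ∈ L, γ = MulAut.conj s * l

/-! ### The space `W = Q / Z` -/

/-- `W = Q / Z` with the coordinates `(t, m)` -/
abbrev W (K : Type u) : Type u := K × K

variable {T}

/-- the class in `W` -/
def wv (g : U T) : W K := (g.t, g.m)

variable (T)

/-- the hermitian form -/
def hm (x y : W K) : K := x.1 * T.σ y.2 + x.2 * T.σ y.1

/-- orthogonality with respect to the commutator form -/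
def Perp (x y : W K) : Prop := hm T x y = hm T y x

/-- the action of `xd b` -/
def uW (b : K) : Equiv.Perm (W K) where
  toFun x := (x.1, x.2 - b * x.1)
  invFun x := (x.1, x.2 + b * x.1)
  left_inv x := by simp
  right_inv x := by simp

theorem uW_apply (b : K) (x : W K) : uW b x = (x.1, x.2 - b * x.1) := rfl

theorem uW_mul (a b : K) : uW a * uW b = uW (a + b) :=
  Equiv.ext fun x => by
    simp only [Equiv.Perm.mul_apply, uW_apply]
    exact Prod.ext rfl (by ring)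

theorem uW_zero : uW (0 : K) = 1 := Equiv.ext fun x => by simp [uW_apply]

theorem uW_inv (b : K) : (uW b)⁻¹ = uW (-b) :=
  inv_eq_of_mul_eq_one_right (by rw [uW_mul, add_neg_cancel, uW_zero])

theorem uW_eq_one {b : K} : uW b = 1 ↔ b = 0 :=
  ⟨fun h => by simpa [uW_apply] using Equiv.congr_fun h (1, 0), by rintro rfl; exact uW_zero⟩

/-- the Sylow subgroup of `SU₂(q)` -/
def AW : Subgroup (Equiv.Perm (W K)) where
  carrier := {g | ∃ b, b + T.σ b = 0 ∧ g = uW b}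
  one_mem' := ⟨0, by simp, uW_zero.symm⟩
  mul_mem' := by
    rintro _ _ ⟨a, h, rfl⟩ ⟨c, e, rfl⟩
    exact ⟨_, (sk T).add_mem h e, uW_mul a c⟩
  inv_mem' := by
    rintro _ ⟨a, h, rfl⟩
    exact ⟨_, (sk T).neg_mem h, uW_inv a⟩

theorem mem_AW {g : Equiv.Perm (W K)} : g ∈ AW T ↔ ∃ b, b + T.σ b = 0 ∧ g = uW b := Iff.rfl

/-- the normalizer of `AW` -/
abbrev NW : Subgroup (Equiv.Perm (W K)) := normalizer (AW T : Set (Equiv.Perm (W K)))

/-- the action of `U T` on `W` -/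
def piW : U T →* Equiv.Perm (W K) := MonoidHom.mk' (fun s => uW s.d) fun _ _ => (uW_mul ..).symm

theorem piW_apply (s : U T) : piW T s = uW s.d := rfl

theorem range_piW : (piW T).range = AW T := le_antisymm
  (by rintro _ ⟨s, rfl⟩; exact ⟨_, s.hd, rfl⟩) (by rintro _ ⟨b, h, rfl⟩; exact ⟨xd T b h, rfl⟩)

theorem isPGroup_AW [CharP K p] : IsPGroup p (AW T) :=
  range_piW T ▸ (isPGroup_U p).of_surjective _ (piW T).rangeRestrict_surjective

theorem nor_AW {g : Equiv.Perm (W K)} (h : g ∈ NW T) (x : K) : (g (0, x)).1 = 0 := by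
  obtain ⟨b, -, e⟩ := (mem_normalizer_iff''.1 h (uW T.ep)).1 ⟨_, by simp, rfl⟩
  have := congrArg g (Equiv.congr_fun e (0, x))
  simpa [uW_apply, Prod.ext_iff, T.ep_ne] using this

/-- the reflections -/
def nW (b : Kˣ) : Equiv.Perm (W K) where
  toFun x := ((b : K)⁻¹ * x.2, -b * x.1)
  invFun x := (-(b : K)⁻¹ * x.2, b * x.1)
  left_inv x := by simp
  right_inv x := by simp

theorem nW_apply (b : Kˣ) (x : W K) : nW b x = ((b : K)⁻¹ * x.2, -b * x.1) := rfl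

/-- the chosen skew unit -/
noncomputable def epu : Kˣ := Units.mk0 T.ep T.ep_ne

@[simp] theorem coe_epu : (epu T : K) = T.ep := rfl

/-- the action of `tor c * fld φ` -/
def lamW (c : Kˣ × Kˣ) (φ : RingAut K) : Equiv.Perm (W K) where
  toFun x := (c.1 * (c.2 : K)⁻¹ * φ x.1, c.1 * T.σ c.2 * φ x.2)
  invFun x := (φ.symm ((c.1 : K)⁻¹ * c.2 * x.1), φ.symm ((c.1 * T.σ c.2)⁻¹ * x.2))
  left_inv x := by
    have := T.σ_ne_zero c.2.ne_zero
    ext <;> simp only [RingEquiv.symm_apply_eq] <;> field_simp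
  right_inv x := by
    have := T.σ_ne_zero c.2.ne_zero
    ext <;> simp only [RingEquiv.apply_symm_apply] <;> field_simp

theorem lamW_apply (c : Kˣ × Kˣ) (φ : RingAut K) (x : W K) :
    lamW T c φ x = (c.1 * (c.2 : K)⁻¹ * φ x.1, c.1 * T.σ c.2 * φ x.2) := rfl

/-- additive maps centralizing `AW` -/
def tauW (r : K) : Equiv.Perm (W K) where
  toFun x := (x.1, x.2 + r * T.σ x.1)
  invFun x := (x.1, x.2 - r * T.σ x.1)
  left_inv x := by simp
  right_inv x := by simp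

theorem tauW_apply (r : K) (x : W K) : tauW T r x = (x.1, x.2 + r * T.σ x.1) := rfl

variable {T}

theorem wv_mul {g k : U T} (hk : k ∈ Q T) : wv (g * k) = wv g + wv k := by
  simp [wv, show k.d = 0 from hk]

theorem wv_conj (s : U T) {g : U T} (hg : g ∈ Q T) : wv (s * g * s⁻¹) = uW s.d (wv g) := by
  obtain ⟨h1, h2⟩ := conj_Q s hg
  simp only [wv, uW_apply, h1, h2]

theorem wv_wQ (g : U T) : wv (wQ g) = nW (epu T) (wv g) := rfl

theorem wv_lam (c : Kˣ × Kˣ) (φ : RingAut K) (g : U T) :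
    wv ((tor T c * fld T φ) g) = lamW T c φ (wv g) := rfl

theorem wv_tauJ (r : K) (g : U T) : wv (tauJ T r g) = tauW T (2 * r) (wv g) := rfl

theorem wv_surj (w : W K) : ∃ g ∈ Q T, wv g = w :=
  ⟨⟨w.1, 0, w.2, 0, by simp, by simp⟩, rfl, rfl⟩

theorem wv_eq_zero {g : U T} (hg : g ∈ Q T) : wv g = 0 ↔ g ∈ Z T := by
  simp only [wv, Prod.mk_eq_zero, mem_Z, show g.d = 0 from hg]; tauto

theorem perp_wv {g k : U T} (hg : g ∈ Q T) (hk : k ∈ Q T) : Perp T (wv g) (wv k) ↔ ⁅g, k⁆ = 1 := by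
  obtain ⟨h1, h2⟩ := cm_QQ hg hk
  refine ⟨fun h => eq_one_of_Z h1 ?_, fun h => ?_⟩
  · rw [h2]; exact sub_eq_zero.2 h.symm
  · rw [h] at h2; exact (sub_eq_zero.1 h2.symm).symm

theorem Perp.symm {x y : W K} (h : Perp T x y) : Perp T y x := Eq.symm h

theorem Perp.add {x y z : W K} (h : Perp T x z) (e : Perp T y z) : Perp T (x + y) z := by
  simp only [Perp, hm, Prod.fst_add, Prod.snd_add, map_add] at *
  linear_combination h + e

theorem Perp.smul {x z : W K} {l : K} (hl : T.σ l = l) (h : Perp T x z) : Perp T (l • x) z := by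
  simp only [Perp, hm, Prod.smul_fst, Prod.smul_snd, smul_eq_mul, map_mul, hl] at *
  linear_combination l * h

theorem perp_D {w : W K} : (∀ x, Perp T w (0, x)) ↔ w.1 = 0 := by
  refine ⟨fun h => T.σ_eq_zero.1 (T.eq_zero_of_skew fun x => ?_), fun h x => by simp [Perp, hm, h]⟩
  have := h x
  simp only [Perp, hm, map_zero] at this
  rw [T.inv]; linear_combination -this

theorem hm_uW {b : K} (h : b + T.σ b = 0) (x y : W K) : hm T (uW b x) (uW b y) = hm T x y := by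
  simp only [hm, uW_apply, map_sub, map_mul]
  linear_combination -x.1 * T.σ y.1 * h

theorem chZ : Ch (Q T) (Z T) := by
  have : Z T = Q T ⊓ centralizer (Q T : Set (U T)) :=
    le_antisymm (fun z hz => ⟨Z_le_Q hz, fun x _ => (comm_Z hz x).symm⟩) (inf_le_right.trans cQ)
  exact this ▸ U5.ch_center

theorem div_mem_Z {x y : U T} (hx : x ∈ Q T) (hy : y ∈ Q T) (h : wv y = wv x) : x⁻¹ * y ∈ Z T := by
  have h1 : x.d = 0 := hx
  have h2 : y.d = 0 := hy
  simp only [wv, Prod.mk.injEq] at h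
  simp [mem_Z, h.1, h.2, h1, h2]

theorem wv_ext (α : MulAut (Q T)) {x y : U T} (hx : x ∈ Q T) (hy : y ∈ Q T) (h : wv y = wv x) :
    wv (ext α y) = wv (ext α x) := by
  have m := mul_mem (inv_mem hx) hy
  rw [← mul_inv_cancel_left x y, ext_map_mul α hx m, wv_mul (ext_mem α m),
    (wv_eq_zero (ext_mem α m)).2 (chZ.2 α _ m (div_mem_Z hx hy h)), add_zero]

/-- The action on `Q / Z`. -/
noncomputable def actW (α : MulAut (Q T)) (w : W K) : W K :=
  wv (ext α ⟨w.1, 0, w.2, 0, by simp, by simp⟩)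

theorem actW_wv (α : MulAut (Q T)) {x : U T} (hx : x ∈ Q T) : actW α (wv x) = wv (ext α x) :=
  wv_ext α hx rfl rfl

variable (T) in
/-- The action on `Q / Z` as a homomorphism. -/
noncomputable def rhoW : MulAut (Q T) →* Equiv.Perm (W K) := MonoidHom.toHomPerm
  { toFun := actW
    map_one' := funext fun w => by
      obtain ⟨x, hx, rfl⟩ := wv_surj (T := T) w
      rw [actW_wv _ hx, ext_one]; rfl
    map_mul' := fun α β => funext fun w => by
      obtain ⟨x, hx, rfl⟩ := wv_surj (T := T) w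
      change _ = actW α (actW β (wv x))
      rw [actW_wv _ hx, actW_wv _ hx, actW_wv _ (ext_mem β hx), ext_mul] }

theorem rhoW_wv (α : MulAut (Q T)) {x : U T} (hx : x ∈ Q T) : rhoW T α (wv x) = wv (ext α x) :=
  actW_wv α hx

theorem rhoW_eq {α : MulAut (Q T)} {g : Equiv.Perm (W K)} :
    rhoW T α = g ↔ ∀ x ∈ Q T, wv (ext α x) = g (wv x) :=
  ⟨fun h x hx => by rw [← h, rhoW_wv α hx], fun h => Equiv.ext fun w => by
    obtain ⟨x, hx, rfl⟩ := wv_surj (T := T) w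
    rw [rhoW_wv α hx, h x hx]⟩

variable (T)

/-- The image in `W` of the automizer of `Q`; `D = (0, *)`. -/
structure WG (Γ : Subgroup (Equiv.Perm (W K))) : Prop where
  le : AW T ≤ Γ
  add : ∀ g ∈ Γ, ∀ x y, g (x + y) = g x + g y
  perp : ∀ g ∈ Γ, ∀ x y, Perp T x y → Perp T (g x) (g y)
  syl : ∀ M : Subgroup (Equiv.Perm (W K)), M ≤ Γ → IsPGroup p M → AW T ≤ M → M ≤ AW T
  ti : ∀ g ∈ Γ, ∀ u ∈ AW T, u ≠ 1 → g * u * g⁻¹ ∈ AW T → g ∈ NW T
  sing : (2 : K) = 0 → ∀ g ∈ Γ, ∀ w, hm T w w = 0 → hm T (g w) (g w) = 0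

/-- Basic consequences of `WG`. -/
structure WB (Γ : Subgroup (Equiv.Perm (W K))) : Prop where
  pn : ∀ g ∈ Γ, ∀ u ∈ AW T, u ≠ 1 → g * u * g⁻¹ ∈ NW T → g ∈ NW T
  s0 : ∀ g ∈ Γ, (∀ x, (g (0, x)).1 = 0) → g ∈ NW T
  sem : ∀ g ∈ Γ, ∀ f, T.σ f = f → ∃ f', T.σ f' = f' ∧ ∀ w, g (f • w) = f' • g w

/-- The normalizer of `AW` is semilinear. -/
def Sem (Γ : Subgroup (Equiv.Perm (W K))) : Prop :=
  ∀ g ∈ Γ, g ∈ NW T → ∃ φ : RingAut K, ∀ (c : K) (w : W K), g (c • w) = φ c • g w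

/-- The normalizer of `AW` is semilinear on `D`. -/
def SemD (Γ : Subgroup (Equiv.Perm (W K))) : Prop :=
  ∀ g ∈ Γ, g ∈ NW T → ∃ φ : RingAut K, ∀ c x : K, g (0, c * x) = φ c • g (0, x)

/-- The images of `D` are opposite to `D`. -/
def Opp (Γ : Subgroup (Equiv.Perm (W K))) : Prop :=
  ∀ g ∈ Γ, g ∉ NW T → ∀ x, x ≠ 0 → (g (0, x)).1 ≠ 0

/-- `g D` is the graph of `y ↦ r ȳ`. -/
def Gr (g : Equiv.Perm (W K)) (r : K) : Prop :=
  ∀ w, (∃ x, w = g (0, x)) ↔ ∃ y, w = (y, r * T.σ y)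

/-- `Γ` contains the reflections of `SU₂(q)`. -/
def Full (Γ : Subgroup (Equiv.Perm (W K))) : Prop := ∀ b : Kˣ, (b : K) + T.σ b = 0 → nW b ∈ Γ

/-- `g D` is a `K`-line. -/
def DL (g : Equiv.Perm (W K)) : Prop := ∀ c x : K, ∃ y, g (0, y) = c • g (0, x)

def W1Stmt : Prop := ∀ Γ, WG T p Γ → WB T Γ

def W2Stmt : Prop := ∀ Γ, WG T p Γ → WB T Γ → (2 : K) = 0 ∨ (Big T ∧ SemD T Γ) → Opp T Γ

def W3Stmt : Prop := ∀ Γ, WG T p Γ → WB T Γ → Opp T Γ → ∀ g ∈ Γ, g ∉ NW T →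
  ∃ r, ((2 : K) = 0 → r = 0) ∧ ∃ u ∈ AW T, Gr T (u * g) r

def W4Stmt : Prop := ∀ Γ, WG T p Γ → WB T Γ → Opp T Γ →
  (∀ g ∈ Γ, g ∉ NW T → ∃ u ∈ AW T, Gr T (u * g) 0) ∨ (Big T ∧ SemD T Γ) →
  (∃ g ∈ Γ, Gr T g 0) → Full T Γ

def WStmt : Prop := ∀ Γ, WG T p Γ → (2 : K) = 0 ∨ (Big T ∧ Sem T Γ) → (∃ g ∈ Γ, g ∉ NW T) →
  Full T Γ ∧ ∀ g ∈ Γ, DL g

def WGenStmt : Prop := ∀ Γ, WG T p Γ → WB T Γ → (∀ g ∈ Γ, DL g) → ∀ g ∈ Γ,
  g ∈ NW T ∨ ∃ u ∈ AW T, ∀ x, ((nW (epu T) * u * g) (0, x)).1 = 0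

/-- The members of `A` acting trivially on `Q / Z` are inner. -/
def KerQ (A : Subgroup (MulAut (Q T))) : Prop :=
  ∀ α ∈ A, rhoW T α = 1 → ∃ e ∈ Q T, ∀ x ∈ Q T, ext α x = e * x * e⁻¹

def AQStmt : Prop := ∀ A : Subgroup (MulAut (Q T)), U5.LA p (Q T) A →
  KerQ T A ∧ WG T p (A.map (rhoW T)) ∧ ∀ α ∈ A, Nm α ↔ rhoW T α ∈ NW T

/-- Automorphisms of `Q` which are trivial on `Q / Z`. -/
def InnQStmt : Prop := (∀ α : MulAut (Q T), rhoW T α = 1 → (∀ z ∈ Z T, ext α z = z) ∧ α ^ p = 1) ∧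
  (Pri T → KerQ T ⊤)

/-- `Lam` acts faithfully on `W` and on `J`, modulo the inner automorphisms. -/
def LamStmt : Prop := ∀ l ∈ Lam T, ∀ l' ∈ Lam T, ∀ s : U T,
  ((∀ x ∈ Q T, wv (s * l x * s⁻¹) = wv (l' x)) → l = l') ∧ ((∀ x ∈ J T, s * l x * s⁻¹ = l' x) → l = l')

def RigQStmt : Prop := ∀ (C : Subgroup (MulAut (U T))) (A : Subgroup (MulAut (Q T))),
  U5.LB p C (Q T) A → KerQ T A → (∀ c : Kˣ, tor T (c, c⁻¹) ∈ C) →
  (∃ n ∈ A, rhoW T n = nW (epu T)) → ∃ n ∈ A, ∀ x ∈ Q T, ext n x = wQ x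

/-! ### The space `V = J` -/

/-- the triples `(a, m, d)` with `a`, `d` skew -/
def VS : AddSubgroup (K × K × K) := (sk T).prod ((⊤ : AddSubgroup K).prod (sk T))

/-- `V = J`, written additively -/
abbrev VV : Type u := VS T

variable {T}

/-- first coordinate -/
def va (v : VV T) : K := v.1.1
/-- second coordinate -/
def vm (v : VV T) : K := v.1.2.1
/-- third coordinate -/
def vd (v : VV T) : K := v.1.2.2

/-- the vector with the given coordinates -/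
def mkV (a m d : K) (ha : a + T.σ a = 0) (hd : d + T.σ d = 0) : VV T := ⟨(a, m, d), ha, trivial, hd⟩

theorem va_sk (v : VV T) : va v + T.σ (va v) = 0 := v.2.1
theorem vd_sk (v : VV T) : vd v + T.σ (vd v) = 0 := v.2.2.2
theorem σ_va (v : VV T) : T.σ (va v) = -va v := by linear_combination va_sk v
theorem σ_vd (v : VV T) : T.σ (vd v) = -vd v := by linear_combination vd_sk v

theorem vext {v w : VV T} (h1 : va v = va w) (h2 : vm v = vm w) (h3 : vd v = vd w) : v = w :=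
  Subtype.ext (Prod.ext h1 (Prod.ext h2 h3))

section
variable (a m d : K) (ha : a + T.σ a = 0) (hd : d + T.σ d = 0) (v w : VV T)
@[simp] theorem va_mk : va (mkV a m d ha hd) = a := rfl
@[simp] theorem vm_mk : vm (mkV a m d ha hd) = m := rfl
@[simp] theorem vd_mk : vd (mkV a m d ha hd) = d := rfl
@[simp] theorem va_add : va (v + w) = va v + va w := rfl
@[simp] theorem vm_add : vm (v + w) = vm v + vm w := rfl
@[simp] theorem vd_add : vd (v + w) = vd v + vd w := rfl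
@[simp] theorem va_sub : va (v - w) = va v - va w := rfl
@[simp] theorem vm_sub : vm (v - w) = vm v - vm w := rfl
@[simp] theorem vd_sub : vd (v - w) = vd v - vd w := rfl
@[simp] theorem va_neg : va (-v) = -va v := rfl
@[simp] theorem vm_neg : vm (-v) = -vm v := rfl
@[simp] theorem vd_neg : vd (-v) = -vd v := rfl
@[simp] theorem va_zero : va (0 : VV T) = 0 := rfl
@[simp] theorem vm_zero : vm (0 : VV T) = 0 := rfl
@[simp] theorem vd_zero : vd (0 : VV T) = 0 := rfl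
theorem va_nsmul (n : ℕ) : va (n • v) = n * va v := by simp [va]
theorem vm_nsmul (n : ℕ) : vm (n • v) = n * vm v := by simp [vm]
theorem vd_nsmul (n : ℕ) : vd (n • v) = n * vd v := by simp [vd]
end

theorem p_smul_V [CharP K p] (v : VV T) : p • v = 0 :=
  vext (by simp [va_nsmul]) (by simp [vm_nsmul]) (by simp [vd_nsmul])

/-- the vector of an element of `U T` -/
def vv (g : U T) : VV T := mkV g.a g.m g.d g.ha g.hd

/-- the element of `J` with the given vector -/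
def uv (v : VV T) : U T := ⟨0, va v, vm v, vd v, va_sk v, vd_sk v⟩

@[simp] theorem va_vv (g : U T) : va (vv g) = g.a := rfl
@[simp] theorem vm_vv (g : U T) : vm (vv g) = g.m := rfl
@[simp] theorem vd_vv (g : U T) : vd (vv g) = g.d := rfl
@[simp] theorem vv_uv (v : VV T) : vv (uv v) = v := rfl
theorem uv_mem (v : VV T) : uv v ∈ J T := rfl
theorem uv_vv {g : U T} (hg : g ∈ J T) : uv (vv g) = g := U.ext (Eq.symm hg) rfl rfl rfl

theorem vv_mul {g : U T} (hg : g ∈ J T) (k : U T) : vv (g * k) = vv g + vv k := by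
  have h : g.t = 0 := hg
  apply vext <;> simp [h]

variable (T)

/-- the action of `xt t` as a map -/
def xmap (t : K) (v : VV T) : VV T :=
  mkV (va v - t * T.σ (vm v) + T.σ t * vm v + t * T.σ t * vd v) (vm v + t * vd v) (vd v)
    (by simp only [map_add, map_sub, map_mul, T.inv, σ_va, σ_vd]; ring) (vd_sk v)

theorem xmap_xmap (s t : K) (v : VV T) : xmap T s (xmap T t v) = xmap T (s + t) v := by
  apply vext <;> simp only [xmap, va_mk, vm_mk, vd_mk, map_add, map_mul, σ_vd] <;> ring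

theorem xmap_zero (v : VV T) : xmap T 0 v = v := by apply vext <;> simp [xmap]

/-- the action of `xt t` -/
def vX (t : K) : Equiv.Perm (VV T) where
  toFun := xmap T t
  invFun := xmap T (-t)
  left_inv v := by rw [xmap_xmap, neg_add_cancel, xmap_zero]
  right_inv v := by rw [xmap_xmap, add_neg_cancel, xmap_zero]

section
variable (t : K) (v : VV T)
@[simp] theorem va_vX : va (vX T t v) = va v - t * T.σ (vm v) + T.σ t * vm v + t * T.σ t * vd v := rfl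
@[simp] theorem vm_vX : vm (vX T t v) = vm v + t * vd v := rfl
@[simp] theorem vd_vX : vd (vX T t v) = vd v := rfl
end

theorem vX_mul (s t : K) : vX T s * vX T t = vX T (s + t) := Equiv.ext (xmap_xmap T s t)

theorem vX_zero : vX T 0 = 1 := Equiv.ext (xmap_zero T)

theorem vX_inv (t : K) : (vX T t)⁻¹ = vX T (-t) :=
  inv_eq_of_mul_eq_one_right (by rw [vX_mul, add_neg_cancel, vX_zero])

theorem vX_eq_one {t : K} : vX T t = 1 ↔ t = 0 :=
  ⟨fun h => by simpa [T.ep_ne] using congrArg vm (Equiv.congr_fun h (mkV 0 0 T.ep (by simp) (by simp))),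
    by rintro rfl; exact vX_zero T⟩

theorem vX_add (t : K) (v w : VV T) : vX T t (v + w) = vX T t v + vX T t w := by
  apply vext <;> simp <;> ring

/-- the action of `U T` on `V` -/
def piV : U T →* Equiv.Perm (VV T) := MonoidHom.mk' (fun s => vX T s.t) fun _ _ => (vX_mul ..).symm

/-- the Sylow subgroup of `Ω₄⁻(q)` -/
def XV : Subgroup (Equiv.Perm (VV T)) := (piV T).range

theorem mem_XV {g : Equiv.Perm (VV T)} : g ∈ XV T ↔ ∃ t, g = vX T t :=
  ⟨fun ⟨s, e⟩ => ⟨s.t, e.symm⟩, fun ⟨t, e⟩ => ⟨xt T t, e.symm⟩⟩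

theorem vX_mem (t : K) : vX T t ∈ XV T := (mem_XV T).2 ⟨t, rfl⟩

theorem isPGroup_XV [CharP K p] : IsPGroup p (XV T) :=
  (isPGroup_U p).of_surjective _ (piV T).rangeRestrict_surjective

/-- the normalizer of `XV` -/
abbrev NV : Subgroup (Equiv.Perm (VV T)) := normalizer (XV T : Set (Equiv.Perm (VV T)))

/-- the action on `V` of an automorphism of `U T` which leaves `J` invariant -/
def autV (β : MulAut (U T)) (h : ∀ g : U T, (β g).t = 0 ↔ g.t = 0) : Equiv.Perm (VV T) where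
  toFun v := vv (β (uv v))
  invFun v := vv (β⁻¹ (uv v))
  left_inv v := by
    beta_reduce
    rw [uv_vv ((h _).2 rfl), MulAut.inv_apply_self, vv_uv]
  right_inv v := by
    beta_reduce
    rw [uv_vv ((h _).1 (by rw [MulAut.apply_inv_self]; rfl)), MulAut.apply_inv_self, vv_uv]

/-- the action of `tor c * fld φ` -/
def lamV (c : Kˣ × Kˣ) (φ : RingAut K) : Equiv.Perm (VV T) :=
  autV T (tor T c * fld T φ) fun g => by simp

/-- the action of `tauZ f` -/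
def tauV (f : K) (h : T.σ f = f) : Equiv.Perm (VV T) := autV T (tauZ T f h) fun _ => Iff.rfl

/-- the reflection -/
def vW : Equiv.Perm (VV T) where
  toFun v := mkV (vd v) (T.σ (vm v)) (va v) (vd_sk v) (va_sk v)
  invFun v := mkV (vd v) (T.σ (vm v)) (va v) (vd_sk v) (va_sk v)
  left_inv v := by apply vext <;> simp
  right_inv v := by apply vext <;> simp

section
variable (c : Kˣ × Kˣ) (φ : RingAut K) (f : K) (h : T.σ f = f) (v : VV T)
@[simp] theorem va_lamV : va (lamV T c φ v) = c.1 * T.σ c.1 * φ (va v) := rfl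
@[simp] theorem vm_lamV : vm (lamV T c φ v) = c.1 * T.σ c.2 * φ (vm v) := rfl
@[simp] theorem vd_lamV : vd (lamV T c φ v) = c.2 * T.σ c.2 * φ (vd v) := rfl
@[simp] theorem va_tauV : va (tauV T f h v) = va v + f * vd v := rfl
@[simp] theorem vm_tauV : vm (tauV T f h v) = vm v := rfl
@[simp] theorem vd_tauV : vd (tauV T f h v) = vd v := rfl
@[simp] theorem va_vW : va (vW T v) = vd v := rfl
@[simp] theorem vm_vW : vm (vW T v) = T.σ (vm v) := rfl
@[simp] theorem vd_vW : vd (vW T v) = va v := rfl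
end

theorem vW_mul : vW T * vW T = 1 := Equiv.ext (vW T).left_inv

theorem lamV_vX (c : Kˣ × Kˣ) (φ : RingAut K) (t : K) :
    lamV T c φ * vX T t = vX T (c.1 * (c.2 : K)⁻¹ * φ t) * lamV T c φ := Equiv.ext fun v => by
  have := T.σ_ne_zero c.2.ne_zero
  apply vext <;> simp [T.com] <;> field_simp

theorem tauV_vX (f : K) (h : T.σ f = f) (t : K) : tauV T f h * vX T t = vX T t * tauV T f h :=
  Equiv.ext fun v => by apply vext <;> simp; ring

/-- The action of the automorphisms of `J` on `V`. -/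
noncomputable def rhoV : MulAut (J T) →* Equiv.Perm (VV T) := MonoidHom.toHomPerm
  { toFun := fun α v => vv (ext α (uv v))
    map_one' := funext fun v => by rw [ext_one]; rfl
    map_mul' := fun α β => funext fun v => by
      change _ = vv (ext α (uv (vv (ext β (uv v)))))
      rw [uv_vv (ext_mem β (uv_mem v)), ext_mul] }

variable {T}

theorem rhoV_vv (α : MulAut (J T)) {x : U T} (hx : x ∈ J T) : rhoV T α (vv x) = vv (ext α x) := by
  change vv (ext α (uv (vv x))) = _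
  rw [uv_vv hx]

theorem rhoV_eq {α : MulAut (J T)} {g : Equiv.Perm (VV T)} :
    rhoV T α = g ↔ ∀ x ∈ J T, vv (ext α x) = g (vv x) :=
  ⟨fun h x hx => by rw [← h, rhoV_vv α hx], fun h => Equiv.ext fun v => h _ (uv_mem v)⟩

theorem vv_inj {x y : U T} (hx : x ∈ J T) (hy : y ∈ J T) (h : vv x = vv y) : x = y := by
  rw [← uv_vv hx, h, uv_vv hy]

theorem vv_conj (s : U T) {g : U T} (hg : g ∈ J T) : vv (s * g * s⁻¹) = vX T s.t (vv g) := by
  obtain ⟨h1, h2, h3⟩ := conj_J s hg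
  exact vext h1 h2 h3

theorem vv_wJ (g : U T) : vv (wJ g) = vW T (vv g) := rfl

theorem vv_lam (c : Kˣ × Kˣ) (φ : RingAut K) (g : U T) :
    vv ((tor T c * fld T φ) g) = lamV T c φ (vv g) := rfl

theorem vv_tauZ (f : K) (h : T.σ f = f) (g : U T) : vv (tauZ T f h g) = tauV T f h (vv g) := rfl

/-- the vectors of `Z` -/
def zV (v : VV T) : Prop := vm v = 0 ∧ vd v = 0

variable (T)

/-- The automizer of `J`; `Z₂ = {vd = 0}`. -/
structure VG0 (Γ : Subgroup (Equiv.Perm (VV T))) : Prop where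
  le : XV T ≤ Γ
  add : ∀ g ∈ Γ, ∀ x y, g (x + y) = g x + g y
  syl : ∀ M : Subgroup (Equiv.Perm (VV T)), M ≤ Γ → IsPGroup p M → XV T ≤ M → M ≤ XV T

/-- The automizer of `J`, with trivial intersections. -/
structure VG (Γ : Subgroup (Equiv.Perm (VV T))) : Prop extends VG0 T p Γ where
  ti : ∀ g ∈ Γ, ∀ u ∈ XV T, u ≠ 1 → g * u * g⁻¹ ∈ XV T → g ∈ NV T

/-- Basic consequences of `VG`. -/
structure VB (Γ : Subgroup (Equiv.Perm (VV T))) : Prop where
  pn : ∀ g ∈ Γ, ∀ u ∈ XV T, u ≠ 1 → g * u * g⁻¹ ∈ NV T → g ∈ NV T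
  nz : ∀ g ∈ Γ, g ∈ NV T → (∀ z, zV z → zV (g z)) ∧ ∀ y, vd y = 0 → vd (g y) = 0
  t1 : ∀ g ∈ Γ, ∀ z, zV z → vd (g z) = 0 → zV (g z)
  t2 : ∀ g ∈ Γ, ∀ y, vd y = 0 → ∃ z y', zV z ∧ vd y' = 0 ∧ y = z + g y'
  s1 : ∀ g ∈ Γ, (∀ z, zV z → zV (g z)) → g ∈ NV T
  s2 : ∀ g ∈ Γ, (∀ y, vd y = 0 → vd (g y) = 0) → g ∈ NV T

/-- `g Z ∩ Z₂ = 0` and `V = Z + g Z₂`. -/
def OppV (Γ : Subgroup (Equiv.Perm (VV T))) : Prop := ∀ g ∈ Γ, g ∉ NV T →
  (∀ z, zV z → vd (g z) = 0 → z = 0) ∧ ∀ v, ∃ z y, zV z ∧ vd y = 0 ∧ v = z + g y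

/-- `XV` is transitive on the other conjugates. -/
def Orb (Γ : Subgroup (Equiv.Perm (VV T))) : Prop :=
  ∀ g ∈ Γ, g ∉ NV T → ∀ k ∈ Γ, k ∉ NV T → ∃ t, k⁻¹ * vX T t * g ∈ NV T

variable {T} in
/-- `g Z = {(f d, 0, d)}` and `g Z₂ = {a = f d}`. -/
def St0 (g : Equiv.Perm (VV T)) (f : K) : Prop :=
  (∀ v, (∃ z, zV z ∧ v = g z) ↔ vm v = 0 ∧ va v = f * vd v) ∧
    ∀ v, (∃ y, vd y = 0 ∧ v = g y) ↔ va v = f * vd v

def V1Stmt : Prop := ∀ Γ, VG T p Γ → VB T Γ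

def V2Stmt : Prop := ∀ Γ, VG T p Γ → VB T Γ → OppV T Γ

def V3Stmt : Prop := ∀ Γ, VG T p Γ → VB T Γ → OppV T Γ → Orb T Γ

def V4Stmt : Prop := ∀ Γ, VG T p Γ → VB T Γ → OppV T Γ → Orb T Γ → (∃ g ∈ Γ, g ∉ NV T) →
  (∃ c : Kˣ, T.σ c = c ∧ (c : K) ^ 2 ≠ 1 ∧ lamV T (1, c) 1 ∈ Γ) → ∃ g ∈ Γ, St0 g 0

def V5Stmt : Prop := ∀ Γ, VG T p Γ → VB T Γ → OppV T Γ → Orb T Γ → (∃ g ∈ Γ, g ∉ NV T) → Pri T →
  ∃ f, T.σ f = f ∧ (∃ g ∈ Γ, St0 g f) ∧
    ∀ c φ, lamV T c φ ∈ Γ → c.1 * T.σ c.1 * φ f = f * (c.2 * T.σ c.2)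

def V6Stmt : Prop := ∀ Γ, VG T p Γ → VB T Γ → Orb T Γ → (∃ g ∈ Γ, St0 g 0) →
  vW T ∈ Γ ∧ ∀ c : Kˣ, lamV T (c, c⁻¹) 1 ∈ Γ

def AJStmt : Prop := (∀ α : MulAut (J T), Nm α ↔ rhoV T α ∈ NV T) ∧
  (∀ A, LA0 p (J T) A → VG0 T p (A.map (rhoV T))) ∧ ∀ A, U5.LA p (J T) A → VG T p (A.map (rhoV T))

/-! ### The special unitary group -/

/-- `L` contains the torus of `PSU₄(q)`. -/
def TS (L : Subgroup (MulAut (U T))) : Prop :=
  (∀ c : Kˣ, tor T (c, c⁻¹) ∈ L) ∧ ∀ c : Kˣ, T.σ c = c → tor T (1, c) ∈ L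

/-- The realizing group. -/
def RealStmt : Prop := ∀ L : Subgroup (MulAut (U T)), L ≤ Lam T → ¬ p ∣ Nat.card L → TS T L →
  ∃ (G : Type u) (_ : Group G) (_ : Finite G) (ι : U T →* G), Function.Injective ι ∧
    ¬ p ∣ ι.range.index ∧
    (∀ g ∈ normalizer (ι.range : Set G), ∃ s, ∃ l ∈ L, ∀ u, g * ι u * g⁻¹ = ι (s * l u * s⁻¹)) ∧
    (∀ l ∈ L, ∃ g, ∀ u, g * ι u * g⁻¹ = ι (l u)) ∧
    (∃ g, ∀ u ∈ Q T, g * ι u * g⁻¹ = ι (wQ u)) ∧ (∃ g, ∀ u ∈ J T, g * ι u * g⁻¹ = ι (wJ u)) ∧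
    ∀ g, (∀ u ∈ Q T, ∃ v ∈ Q T, g * ι u * g⁻¹ = ι v) → ∀ c x : K, ∃ y, ∀ u v,
      g * ι (xm T x) * g⁻¹ = ι u → g * ι (xm T y) * g⁻¹ = ι v → wv v = c • wv u

/-- the Gram matrix -/
def J4 (K : Type u) [Field K] : Matrix (Fin 4) (Fin 4) K := !![0, 0, 0, 1; 0, 0, 1, 0; 0, 1, 0, 0; 1, 0, 0, 0]

/-- `SU₄` for the antidiagonal form -/
def XU : Subgroup (Matrix.SpecialLinearGroup (Fin 4) K) where
  carrier := {g | (g.1.map T.σ).transpose * J4 K * g.1 = J4 K}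
  one_mem' := by simp
  mul_mem' := fun {a b} (ha : _ = _) (hb : _ = _) => by
    change ((a.1 * b.1).map T.σ).transpose * J4 K * (a.1 * b.1) = J4 K
    rw [Matrix.map_mul, Matrix.transpose_mul, Matrix.mul_assoc, Matrix.mul_assoc, ← Matrix.mul_assoc (J4 K),
      ← Matrix.mul_assoc _ (J4 K * a.1), ← Matrix.mul_assoc _ (J4 K), ha, ← Matrix.mul_assoc, hb]
  inv_mem' := fun {a} (ha : _ = _) => by
    have h : a.1 * (a⁻¹).1 = 1 := congrArg Subtype.val (mul_inv_cancel a)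
    change (((a⁻¹).1).map T.σ).transpose * J4 K * (a⁻¹).1 = J4 K
    conv_lhs => rw [← ha]
    rw [Matrix.mul_assoc, Matrix.mul_assoc _ a.1, h, Matrix.mul_one, ← Matrix.mul_assoc,
      ← Matrix.transpose_mul, ← Matrix.map_mul, h]
    simp

variable {T}

/-- the matrix of an element of `U T` -/
def mat (g : U T) : Matrix (Fin 4) (Fin 4) K :=
  !![1, g.t, g.m, g.a - g.m * T.σ g.t;
     0, 1, g.d, -T.σ g.m - g.d * T.σ g.t;
     0, 0, 1, -T.σ g.t;
     0, 0, 0, 1]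

theorem mat_mul (g k : U T) : mat (g * k) = mat g * mat k := by
  ext i j
  fin_cases i <;> fin_cases j <;> simp [mat, Matrix.mul_apply, Fin.sum_univ_four, U.σ_d] <;> ring

theorem mat_det (g : U T) : (mat g).det = 1 := by
  rw [Matrix.det_of_isUpperTriangular]
  · simp [mat, Fin.prod_univ_four]
  · intro i j h
    fin_cases i <;> fin_cases j <;> simp_all [mat]

theorem mat_unit (g : U T) : ((mat g).map T.σ).transpose * J4 K * mat g = J4 K := by
  ext i j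
  fin_cases i <;> fin_cases j <;>
    simp [mat, J4, Matrix.mul_apply, Fin.sum_univ_four, U.σ_d, U.σ_a] <;> ring

variable (T)

/-- the embedding of `U T` in `SU₄` -/
def iU : U T →* XU T := MonoidHom.mk' (fun g => ⟨⟨mat g, mat_det g⟩, mat_unit g⟩)
  fun g k => Subtype.ext (Subtype.ext (mat_mul g k))

theorem coe_iU (g : U T) : (iU T g).1.1 = mat g := rfl

theorem iU_inj : Function.Injective (iU T) := fun g k h => by
  have e : mat g = mat k := congrArg (fun x : XU T => x.1.1) h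
  have f := fun i j => congrFun (congrFun e i) j
  have h1 : g.t = k.t := f 0 1
  have h2 : g.m = k.m := f 0 2
  have h3 : g.a - g.m * T.σ g.t = k.a - k.m * T.σ k.t := f 0 3
  rw [h1, h2] at h3
  exact U.ext h1 (sub_left_inj.1 h3) h2 (f 1 2)

/-- Reflections, diagonal and field automorphisms of `SU₄`. -/
def X1Stmt : Prop := (∃ g : XU T, ∀ u ∈ Q T, g * iU T u * g⁻¹ = iU T (wQ u)) ∧
  (∃ g : XU T, ∀ u ∈ J T, g * iU T u * g⁻¹ = iU T (wJ u)) ∧
  ∃ (aT : Kˣ × Kˣ →* MulAut (XU T)) (aF : RingAut K →* MulAut (XU T)),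
    (∀ c u, aT c (iU T u) = iU T (tor T c u)) ∧ (∀ φ u, aF φ (iU T u) = iU T (fld T φ u)) ∧
    (∀ φ c, aF φ * aT c = aT (fT φ c) * aF φ) ∧ ∀ e : Kˣ, e * T.σ e = 1 → aT (e, e) = 1

/-- The normalizer of `U T` in `SU₄`. -/
def X2Stmt : Prop := ¬ p ∣ (iU T).range.index ∧ ∀ g ∈ normalizer ((iU T).range : Set (XU T)),
  ∃ (s : U T) (c l : Kˣ), T.σ l = l ∧
    ∀ u, g * iU T u * g⁻¹ = iU T (s * tor T (c, c⁻¹) (tor T (1, l) u) * s⁻¹)

/-- The normalizer of `Q` in `SU₄` is linear on `W`. -/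
def X3Stmt : Prop := ∀ g : XU T, (∀ u ∈ Q T, ∃ v ∈ Q T, g * iU T u * g⁻¹ = iU T v) → ∀ (c x : K) u v,
  g * iU T (xm T x) * g⁻¹ = iU T u → g * iU T (xm T (c * x)) * g⁻¹ = iU T v → wv v = c • wv u

/-- The Sylow subgroups of `PSU₄(q)`. -/
def EmbStmt (K : Type u) [Field K] [Fintype K] (p : ℕ) : Prop := ∀ n : ℕ, 1 ≤ n →
  Fintype.card K = (p ^ n) ^ 2 → ∀ S : Sylow p (PSU 4 K (p ^ n)), ∃ T : Hm K,
    (X2Stmt T p → Nonempty (U T ≃* (S : Subgroup (PSU 4 K (p ^ n)))))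

end Cfsg.Agent.H97.U4
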