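import Cfsg.Agent.H97.U5U

/-!
The Sylow `p`-subgroup of `PSU₄(q)` in coordinates.  An element `(t, a, m, d)` stands for the product of
the skew hermitian matrix `M = [[a, m], [·, d]]` and the transvection `[[1, t], [0, 1]]`.
-/

set_option autoImplicit false

namespace Cfsg.Agent.H97.U4

open Subgroup
open Cfsg.Agent.H97.U5 (Hm)
open scoped commutatorElement

universe u

variable {K : Type u} [Field K] (T : Hm K)

/-- The unipotent group. -/
@[ext] structure U where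
  t : K
  a : K
  m : K
  d : K
  ha : a + T.σ a = 0
  hd : d + T.σ d = 0

namespace U

variable {T}

theorem σ_a (g : U T) : T.σ g.a = -g.a := by linear_combination g.ha
theorem σ_d (g : U T) : T.σ g.d = -g.d := by linear_combination g.hd

instance : Mul (U T) := ⟨fun g k =>
  { t := g.t + k.t
    a := g.a + k.a - g.t * T.σ k.m + T.σ g.t * k.m + g.t * T.σ g.t * k.d
    m := g.m + k.m + g.t * k.d
    d := g.d + k.d
    ha := by simp only [map_add, map_sub, map_mul, T.inv, σ_a, σ_d]; ring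
    hd := by simp only [map_add, σ_d]; ring }⟩

instance : One (U T) := ⟨⟨0, 0, 0, 0, by simp, by simp⟩⟩

instance : Inv (U T) := ⟨fun g =>
  { t := -g.t
    a := -g.a - g.t * T.σ g.m + T.σ g.t * g.m - g.t * T.σ g.t * g.d
    m := -g.m + g.t * g.d
    d := -g.d
    ha := by simp only [map_add, map_sub, map_mul, map_neg, T.inv, σ_a, σ_d]; ring
    hd := by simp only [map_neg, σ_d]; ring }⟩

variable (g k : U T)

@[simp] theorem mul_t : (g * k).t = g.t + k.t := rfl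
@[simp] theorem mul_a : (g * k).a = g.a + k.a - g.t * T.σ k.m + T.σ g.t * k.m
    + g.t * T.σ g.t * k.d := rfl
@[simp] theorem mul_m : (g * k).m = g.m + k.m + g.t * k.d := rfl
@[simp] theorem mul_d : (g * k).d = g.d + k.d := rfl
@[simp] theorem one_t : (1 : U T).t = 0 := rfl
@[simp] theorem one_a : (1 : U T).a = 0 := rfl
@[simp] theorem one_m : (1 : U T).m = 0 := rfl
@[simp] theorem one_d : (1 : U T).d = 0 := rfl
@[simp] theorem inv_t : g⁻¹.t = -g.t := rfl
@[simp] theorem inv_a : g⁻¹.a = -g.a - g.t * T.σ g.m + T.σ g.t * g.m - g.t * T.σ g.t * g.d := rfl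
@[simp] theorem inv_m : g⁻¹.m = -g.m + g.t * g.d := rfl
@[simp] theorem inv_d : g⁻¹.d = -g.d := rfl

end U

/-- Expands the coordinates of products and inverses. -/
macro "u4s" : tactic => `(tactic| simp only [commutatorElement_def, U.mul_t, U.mul_a, U.mul_m, U.mul_d,
  U.one_t, U.one_a, U.one_m, U.one_d, U.inv_t, U.inv_a, U.inv_m, U.inv_d, map_add, map_sub, map_mul,
  map_neg, map_zero, map_one, U5.Hm.inv, U.σ_a, U.σ_d])

/-- Expands the coordinates, rewrites with the given equations and calls `ring`. -/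
macro "u4r" "[" ts:Lean.Parser.Tactic.simpLemma,* "]" : tactic => `(tactic| (try simp only [
  commutatorElement_def, U.mul_t, U.mul_a, U.mul_m, U.mul_d, U.one_t, U.one_a, U.one_m, U.one_d,
  U.inv_t, U.inv_a, U.inv_m, U.inv_d, map_add, map_sub, map_mul, map_neg, map_zero, map_one, U5.Hm.inv,
  U.σ_a, U.σ_d, $ts,*]) <;> try ring)

instance : Group (U T) := Group.ofLeftAxioms
  (fun a b c => by ext <;> u4s <;> ring) (fun a => by ext <;> u4s <;> ring)
  (fun a => by ext <;> u4s <;> ring)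

instance [Finite K] : Finite (U T) :=
  Finite.of_injective (fun g : U T => (g.t, g.a, g.m, g.d)) fun g k h => by
    simp only [Prod.mk.injEq] at h
    exact U.ext h.1 h.2.1 h.2.2.1 h.2.2.2

instance [DecidableEq K] : DecidableEq (U T) := fun g k =>
  decidable_of_iff (g.t = k.t ∧ g.a = k.a ∧ g.m = k.m ∧ g.d = k.d) U.ext_iff.symm

/-! ### Elements -/

/-- the transvection -/
def xt (t : K) : U T := ⟨t, 0, 0, 0, by simp, by simp⟩
/-- the root element in position `(1,2)` of `M` -/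
def xm (m : K) : U T := ⟨0, 0, m, 0, by simp, by simp⟩
/-- central elements -/
def xa (a : K) (h : a + T.σ a = 0) : U T := ⟨0, a, 0, 0, h, by simp⟩
/-- skew elements in position `(2,2)` -/
def xd (d : K) (h : d + T.σ d = 0) : U T := ⟨0, 0, 0, d, by simp, h⟩

section
variable (x : K) (e : x + T.σ x = 0)
@[simp] theorem xt_t : (xt T x).t = x := rfl
@[simp] theorem xt_a : (xt T x).a = 0 := rfl
@[simp] theorem xt_m : (xt T x).m = 0 := rfl
@[simp] theorem xt_d : (xt T x).d = 0 := rfl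
@[simp] theorem xm_t : (xm T x).t = 0 := rfl
@[simp] theorem xm_a : (xm T x).a = 0 := rfl
@[simp] theorem xm_m : (xm T x).m = x := rfl
@[simp] theorem xm_d : (xm T x).d = 0 := rfl
@[simp] theorem xa_t : (xa T x e).t = 0 := rfl
@[simp] theorem xa_a : (xa T x e).a = x := rfl
@[simp] theorem xa_m : (xa T x e).m = 0 := rfl
@[simp] theorem xa_d : (xa T x e).d = 0 := rfl
@[simp] theorem xd_t : (xd T x e).t = 0 := rfl
@[simp] theorem xd_a : (xd T x e).a = 0 := rfl
@[simp] theorem xd_m : (xd T x e).m = 0 := rfl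
@[simp] theorem xd_d : (xd T x e).d = x := rfl
end

variable {T} in
/-- the normal form -/
theorem nf (g : U T) : g = xa T g.a g.ha * xm T g.m * xd T g.d g.hd * xt T g.t := by
  ext <;> simp

/-! ### Subgroups -/

/-- `J = q^4` -/
def J : Subgroup (U T) where
  carrier := {g | g.t = 0}
  one_mem' := rfl
  mul_mem' := fun {g k} (h : _ = _) (e : _ = _) => by simp [h, e]
  inv_mem' := fun {g} (h : _ = _) => by simp [h]

/-- `Q = q^{1+4}` -/
def Q : Subgroup (U T) where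
  carrier := {g | g.d = 0}
  one_mem' := rfl
  mul_mem' := fun {g k} (h : _ = _) (e : _ = _) => by simp [h, e]
  inv_mem' := fun {g} (h : _ = _) => by simp [h]

/-- the second centre `Q ∩ J` -/
def Z2 : Subgroup (U T) where
  carrier := {g | g.t = 0 ∧ g.d = 0}
  one_mem' := ⟨rfl, rfl⟩
  mul_mem' := fun {g k} ⟨h, h'⟩ ⟨e, e'⟩ => by simp [h, e, h', e']
  inv_mem' := fun {g} ⟨h, h'⟩ => by simp [h, h']

/-- the centre -/
def Z : Subgroup (U T) where
  carrier := {g | g.t = 0 ∧ g.m = 0 ∧ g.d = 0}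
  one_mem' := ⟨rfl, rfl, rfl⟩
  mul_mem' := fun {g k} ⟨h, h1, h2⟩ ⟨e, e1, e2⟩ => by simp [h, e, h1, e1, h2, e2]
  inv_mem' := fun {g} ⟨h, h1, h2⟩ => by simp [h, h1, h2]

/-- `Z₁(t) = C_J(x(t))` -/
def Z1 (t : K) : Subgroup (U T) where
  carrier := {g | g ∈ Z2 T ∧ T.σ t * g.m = t * T.σ g.m}
  one_mem' := ⟨one_mem _, by simp⟩
  mul_mem' := fun {g k} ⟨h, h1⟩ ⟨e, e1⟩ => ⟨mul_mem h e, by
    simp only [U.mul_m, h.1, map_add, map_mul, map_zero]; linear_combination h1 + e1⟩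
  inv_mem' := fun {g} ⟨h, h1⟩ => ⟨inv_mem h, by
    simp only [U.inv_m, h.1, map_add, map_mul, map_zero, map_neg]
    linear_combination -h1⟩

/-- the elements whose first coordinate lies on the line through `t` -/
def Pt (t : K) : Subgroup (U T) where
  carrier := {g | T.σ t * g.t = t * T.σ g.t}
  one_mem' := by simp
  mul_mem' := fun {g k} (h : _ = _) (e : _ = _) => by
    change _ = _
    simp only [U.mul_t, map_add]; linear_combination h + e
  inv_mem' := fun {g} (h : _ = _) => by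
    change _ = _
    simp only [U.inv_t, map_neg]; linear_combination -h

variable {T}
variable {g k : U T}

theorem mem_J : g ∈ J T ↔ g.t = 0 := Iff.rfl
theorem mem_Q : g ∈ Q T ↔ g.d = 0 := Iff.rfl
theorem mem_Z2 : g ∈ Z2 T ↔ g.t = 0 ∧ g.d = 0 := Iff.rfl
theorem mem_Z : g ∈ Z T ↔ g.t = 0 ∧ g.m = 0 ∧ g.d = 0 := Iff.rfl
theorem mem_Z1 {t : K} : g ∈ Z1 T t ↔ g ∈ Z2 T ∧ T.σ t * g.m = t * T.σ g.m := Iff.rfl
theorem mem_Pt {t : K} : g ∈ Pt T t ↔ T.σ t * g.t = t * T.σ g.t := Iff.rfl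

theorem Z_le_Z1 (t : K) : Z T ≤ Z1 T t := fun _ h => ⟨⟨h.1, h.2.2⟩, by simp [h.2.1]⟩
theorem Z1_le_Z2 (t : K) : Z1 T t ≤ Z2 T := fun _ h => h.1
theorem Z_le_Z2 : Z T ≤ Z2 T := fun _ h => ⟨h.1, h.2.2⟩
theorem Z2_le_J : Z2 T ≤ J T := fun _ h => h.1
theorem Z2_le_Q : Z2 T ≤ Q T := fun _ h => h.2
theorem Z_le_Q : Z T ≤ Q T := fun _ h => h.2.2
theorem J_le_Pt (t : K) : J T ≤ Pt T t := fun _ (h : _ = _) => by simp [mem_Pt, h]
theorem xm_Z2 (w : K) : xm T w ∈ Z2 T := ⟨rfl, rfl⟩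

/-! ### Commutators -/

variable (g k)

@[simp] theorem cm_t : ⁅g, k⁆.t = 0 := by u4s; ring
@[simp] theorem cm_d : ⁅g, k⁆.d = 0 := by u4s; ring
theorem cm_m : ⁅g, k⁆.m = g.t * k.d - k.t * g.d := by u4s; ring

theorem cm_Z2 : ⁅g, k⁆ ∈ Z2 T := ⟨cm_t g k, cm_d g k⟩

variable {g k}

/-- commutators with `J` -/
theorem cm_J (hk : k ∈ J T) : ⁅g, k⁆.m = g.t * k.d ∧
    ⁅g, k⁆.a = T.σ g.t * k.m - g.t * T.σ k.m + g.t * T.σ g.t * k.d := by
  have e : k.t = 0 := hk
  exact ⟨by simp [cm_m, e], by u4r [e]⟩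

theorem cm_a2 (hk : k ∈ Z2 T) : ⁅g, k⁆.a = T.σ g.t * k.m - g.t * T.σ k.m := by
  rw [(cm_J hk.1).2, hk.2]; ring

theorem cm_Z (hk : k ∈ Z2 T) : ⁅g, k⁆ ∈ Z T := ⟨cm_t g k, by simp [cm_m, hk.1, hk.2], cm_d g k⟩

theorem cm_Z' (hg : g ∈ Z2 T) : ⁅g, k⁆ ∈ Z T := by
  rw [← commutatorElement_inv]; exact inv_mem (cm_Z hg)

theorem eq_of_Z (hg : g ∈ Z T) (hk : k ∈ Z T) (e : g.a = k.a) : g = k :=
  U.ext (hg.1.trans hk.1.symm) e (hg.2.1.trans hk.2.1.symm) (hg.2.2.trans hk.2.2.symm)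

theorem eq_one_of_Z (h : g ∈ Z T) (e : g.a = 0) : g = 1 := eq_of_Z h (one_mem _) e

theorem comm_Z (hg : g ∈ Z T) (k : U T) : g * k = k * g := by
  ext <;> u4r [hg.1, hg.2.1, hg.2.2]

theorem comm_J (hg : g ∈ J T) (hk : k ∈ J T) : g * k = k * g := by
  have h : g.t = 0 := hg
  have e : k.t = 0 := hk
  ext <;> u4r [h, e]

/-- commutators in `Q` -/
theorem cm_QQ (hg : g ∈ Q T) (hk : k ∈ Q T) : ⁅g, k⁆ ∈ Z T ∧
    ⁅g, k⁆.a = (k.t * T.σ g.m + k.m * T.σ g.t) - (g.t * T.σ k.m + g.m * T.σ k.t) := by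
  have h : g.d = 0 := hg
  have e : k.d = 0 := hk
  exact ⟨⟨cm_t g k, by simp [cm_m, h, e], cm_d g k⟩, by u4r [h, e]⟩

/-- the centre consists of commutators of `k` with `Z₂` -/
theorem exists_cm_xm (hg : g ∈ Z T) (hk : k.t ≠ 0) : ∃ w, ⁅k, xm T w⁆ = g := by
  obtain ⟨w, hw⟩ := T.exists_skew g.ha
  have := T.σ_ne_zero hk
  refine ⟨w / T.σ k.t, eq_of_Z (cm_Z (xm_Z2 _)) hg ?_⟩
  rw [cm_a2 (xm_Z2 _), ← hw, xm_m, map_div₀, T.inv]; field_simp

theorem Z1_comm {t : K} (ht : t ≠ 0) (hg : g ∈ Z1 T t) (hk : k ∈ Pt T t) : g * k = k * g := by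
  refine (commutatorElement_eq_one_iff_mul_comm.1 (eq_one_of_Z (cm_Z hg.1) ?_)).symm
  rw [cm_a2 hg.1]
  have h1 : _ = _ := hk
  refine mul_left_cancel₀ (mul_ne_zero ht (T.σ_ne_zero ht)) ?_
  linear_combination t * T.σ k.t * hg.2 - t * T.σ g.m * h1

theorem mem_Z1_of_comm (hg : g ∈ Z2 T) (h : g * k = k * g) : g ∈ Z1 T k.t := by
  have := cm_a2 (g := k) hg
  rw [commutatorElement_eq_one_iff_mul_comm.2 h.symm] at this
  exact ⟨hg, by simp only [U.one_a] at this; linear_combination -this⟩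

theorem cJ : centralizer (Z2 T : Set (U T)) = J T := by
  refine le_antisymm (fun g hg => ?_) fun g hg k hk => comm_J (Z2_le_J hk) hg
  refine (T.σ_eq_zero.1 (T.eq_zero_of_skew fun w => ?_) :)
  have := cm_a2 (g := g) (xm_Z2 w)
  rw [commutatorElement_eq_one_iff_mul_comm.2 (hg _ (xm_Z2 w)).symm] at this
  simp only [U.one_a, xm_m] at this
  rw [T.inv]; linear_combination -this

theorem cJJ : centralizer (J T : Set (U T)) = J T :=
  le_antisymm ((centralizer_le Z2_le_J).trans cJ.le) fun _ hg _ hk => comm_J hk hg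

theorem cQ : centralizer (Q T : Set (U T)) ≤ Z T := fun g hg => by
  have h1 : g ∈ J T := cJ (T := T) ▸ centralizer_le Z2_le_Q hg
  have h2 : ∀ w, ⁅xt T w, g⁆ = 1 := fun w => commutatorElement_eq_one_iff_mul_comm.2 (hg _ rfl)
  have h3 : g.d = 0 := by simpa [h2] using (cm_J (g := xt T 1) h1).1.symm
  refine ⟨h1, T.eq_zero_of_skew fun w => ?_, h3⟩
  have := cm_a2 (g := xt T (T.σ w)) ⟨h1, h3⟩
  rw [h2] at this
  simp only [U.one_a, xt_t, T.inv] at this
  linear_combination -this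

instance nJ : (J T).Normal := ⟨fun g hg k => by
  have h : g.t = 0 := hg
  simp [mem_J, h]⟩

instance nQ : (Q T).Normal := ⟨fun g hg k => by
  have h : g.d = 0 := hg
  simp [mem_Q, h]⟩

instance nPt (t : K) : (Pt T t).Normal := ⟨fun g hg k => by simpa [mem_Pt] using hg⟩

/-- conjugation on `Q / Z` -/
theorem conj_Q (s : U T) (hg : g ∈ Q T) : (s * g * s⁻¹).t = g.t ∧ (s * g * s⁻¹).m = g.m - s.d * g.t := by
  have h : g.d = 0 := hg
  refine ⟨?_, ?_⟩ <;> u4r [h]

/-- conjugation on `J` -/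
theorem conj_J (s : U T) (hg : g ∈ J T) :
    (s * g * s⁻¹).a = g.a - s.t * T.σ g.m + T.σ s.t * g.m + s.t * T.σ s.t * g.d ∧
    (s * g * s⁻¹).m = g.m + s.t * g.d ∧ (s * g * s⁻¹).d = g.d := by
  have h : g.t = 0 := hg
  refine ⟨?_, ?_, ?_⟩ <;> u4r [h]

theorem pow_J (hg : g ∈ J T) (n : ℕ) : (g ^ n).a = n * g.a ∧ (g ^ n).m = n * g.m ∧
    (g ^ n).d = n * g.d := by
  induction n with
  | zero => simp
  | succ n ih =>
    obtain ⟨h1, h2, h3⟩ := ih
    rw [pow_succ]
    simp only [U.mul_a, U.mul_m, U.mul_d, show (g ^ n).t = 0 from pow_mem hg n, h1, h2, h3, map_zero]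
    push_cast
    refine ⟨by ring, by ring, by ring⟩

theorem pow_J_eq_one (p : ℕ) [CharP K p] (hg : g ∈ J T) : g ^ p = 1 := by
  obtain ⟨h1, h2, h3⟩ := pow_J hg p
  ext <;> simp [show (g ^ p).t = 0 from pow_mem hg p, h1, h2, h3]

theorem pow_t (g : U T) (n : ℕ) : (g ^ n).t = n * g.t ∧ (g ^ n).d = n * g.d := by
  induction n with
  | zero => simp
  | succ n ih => rw [pow_succ, U.mul_t, U.mul_d, ih.1, ih.2]; push_cast; exact ⟨by ring, by ring⟩

theorem isPGroup_U (p : ℕ) [CharP K p] : IsPGroup p (U T) := fun g =>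
  ⟨2, by rw [pow_two, pow_mul]; exact pow_J_eq_one p (by simp [mem_J, (pow_t g p).1])⟩

/-! ### Automorphisms -/

variable (T)

/-- The diagonal matrix `diag(a, b)`. -/
def tmap (a b : Kˣ) (g : U T) : U T :=
  ⟨a * (b : K)⁻¹ * g.t, a * T.σ a * g.a, a * T.σ b * g.m, b * T.σ b * g.d,
    by simp only [map_mul, T.inv, U.σ_a]; ring, by simp only [map_mul, T.inv, U.σ_d]; ring⟩

/-- Diagonal automorphisms. -/
def tor : Kˣ × Kˣ →* MulAut (U T) := MonoidHom.mk' (fun c =>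
    { toFun := tmap T c.1 c.2
      invFun := tmap T c.1⁻¹ c.2⁻¹
      left_inv := fun g => by
        have := T.σ_ne_zero c.1.ne_zero
        have := T.σ_ne_zero c.2.ne_zero
        ext <;> simp [tmap] <;> field_simp
      right_inv := fun g => by
        have := T.σ_ne_zero c.1.ne_zero
        have := T.σ_ne_zero c.2.ne_zero
        ext <;> simp [tmap] <;> field_simp
      map_mul' := fun g k => by
        have := T.σ_ne_zero c.1.ne_zero
        have := T.σ_ne_zero c.2.ne_zero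
        ext <;> simp only [tmap, U.mul_t, U.mul_a, U.mul_m, U.mul_d, map_mul,
          map_inv₀, T.inv] <;> field_simp })
  fun c e => MulEquiv.ext fun g => by
    ext <;> simp [tmap] <;> ring

section
variable (c : Kˣ × Kˣ) (g : U T)
@[simp] theorem tor_t : (tor T c g).t = c.1 * (c.2 : K)⁻¹ * g.t := rfl
@[simp] theorem tor_a : (tor T c g).a = c.1 * T.σ c.1 * g.a := rfl
@[simp] theorem tor_m : (tor T c g).m = c.1 * T.σ c.2 * g.m := rfl
@[simp] theorem tor_d : (tor T c g).d = c.2 * T.σ c.2 * g.d := rfl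
end

/-- A field automorphism applied to the coordinates. -/
def fmap (φ : RingAut K) (g : U T) : U T :=
  ⟨φ g.t, φ g.a, φ g.m, φ g.d, by rw [← T.com, ← map_add, g.ha, map_zero],
    by rw [← T.com, ← map_add, g.hd, map_zero]⟩

/-- Field automorphisms. -/
def fld : RingAut K →* MulAut (U T) where
  toFun φ :=
    { toFun := fmap T φ
      invFun := fmap T φ⁻¹
      left_inv := fun g => by ext <;> exact φ.symm_apply_apply _
      right_inv := fun g => by ext <;> exact φ.apply_symm_apply _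
      map_mul' := fun g k => by
        ext <;> simp only [fmap, U.mul_t, U.mul_a, U.mul_m, U.mul_d, map_add,
          map_sub, map_mul, T.com] }
  map_one' := MulEquiv.ext fun _ => rfl
  map_mul' _ _ := MulEquiv.ext fun _ => rfl

section
variable (φ : RingAut K) (g : U T)
@[simp] theorem fld_t : (fld T φ g).t = φ g.t := rfl
@[simp] theorem fld_a : (fld T φ g).a = φ g.a := rfl
@[simp] theorem fld_m : (fld T φ g).m = φ g.m := rfl
@[simp] theorem fld_d : (fld T φ g).d = φ g.d := rfl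
end

/-- a field automorphism on pairs of units -/
def fT (φ : RingAut K) (c : Kˣ × Kˣ) : Kˣ × Kˣ :=
  (Units.map (φ : K →* K) c.1, Units.map (φ : K →* K) c.2)

theorem fld_tor (φ : RingAut K) (c : Kˣ × Kˣ) : fld T φ * tor T c = tor T (fT φ c) * fld T φ :=
  MulEquiv.ext fun g => by ext <;> simp [fT, T.com]

/-- The diagonal and field automorphisms. -/
def Lam : Subgroup (MulAut (U T)) where
  carrier := {l | ∃ c φ, l = tor T c * fld T φ}
  one_mem' := ⟨1, 1, by simp⟩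
  mul_mem' := by
    rintro _ _ ⟨c, φ, rfl⟩ ⟨d, ψ, rfl⟩
    exact ⟨c * fT φ d, φ * ψ, by
      rw [map_mul, map_mul, mul_assoc, mul_assoc, ← mul_assoc (fld T φ), fld_tor, mul_assoc]⟩
  inv_mem' := by
    rintro _ ⟨c, φ, rfl⟩
    exact ⟨fT φ⁻¹ c⁻¹, φ⁻¹, by rw [mul_inv_rev, ← map_inv, ← map_inv, fld_tor]⟩

theorem mem_Lam {l : MulAut (U T)} : l ∈ Lam T ↔ ∃ c φ, l = tor T c * fld T φ := Iff.rfl

/-- The central automorphism `a ↦ a + f d`. -/
def tauZ (f : K) (h : T.σ f = f) : MulAut (U T) where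
  toFun g := ⟨g.t, g.a + f * g.d, g.m, g.d, by u4r [h], g.hd⟩
  invFun g := ⟨g.t, g.a - f * g.d, g.m, g.d, by u4r [h], g.hd⟩
  left_inv g := by ext <;> simp
  right_inv g := by ext <;> simp
  map_mul' g k := by ext <;> u4r []

section
variable (f : K) (h : T.σ f = f) (g : U T)
@[simp] theorem tauZ_t : (tauZ T f h g).t = g.t := rfl
@[simp] theorem tauZ_a : (tauZ T f h g).a = g.a + f * g.d := rfl
@[simp] theorem tauZ_m : (tauZ T f h g).m = g.m := rfl
@[simp] theorem tauZ_d : (tauZ T f h g).d = g.d := rfl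
end

/-- The automorphism `m ↦ m + 2 r t̄`, which is trivial on `J`. -/
def tauJ (r : K) : MulAut (U T) where
  toFun g := ⟨g.t, g.a + r * T.σ g.t ^ 2 - T.σ r * g.t ^ 2, g.m + 2 * r * T.σ g.t, g.d,
    by u4r [map_pow], g.hd⟩
  invFun g := ⟨g.t, g.a - r * T.σ g.t ^ 2 + T.σ r * g.t ^ 2, g.m - 2 * r * T.σ g.t, g.d,
    by u4r [map_pow], g.hd⟩
  left_inv g := by ext <;> simp only <;> ring
  right_inv g := by ext <;> simp only <;> ring
  map_mul' g k := by ext <;> u4r [map_ofNat]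

section
variable (r : K) (g : U T)
@[simp] theorem tauJ_t : (tauJ T r g).t = g.t := rfl
@[simp] theorem tauJ_a : (tauJ T r g).a = g.a + r * T.σ g.t ^ 2 - T.σ r * g.t ^ 2 := rfl
@[simp] theorem tauJ_m : (tauJ T r g).m = g.m + 2 * r * T.σ g.t := rfl
@[simp] theorem tauJ_d : (tauJ T r g).d = g.d := rfl
end

theorem tauJ_J (r : K) {g : U T} (hg : g ∈ J T) : tauJ T r g = g := by
  have h : g.t = 0 := hg
  ext <;> simp [h]

theorem tauZ_Q (f : K) (h : T.σ f = f) {g : U T} (hg : g ∈ Q T) : tauZ T f h g = g := by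
  have h : g.d = 0 := hg
  ext <;> simp [h]

variable {T}

/-- The reflection normalizing `Q`. -/
noncomputable def wQ (g : U T) : U T :=
  ⟨T.ep⁻¹ * g.m, g.a + g.t * T.σ g.m - g.m * T.σ g.t, -T.ep * g.t, 0, by u4r [], by simp⟩

/-- The reflection normalizing `J`. -/
def wJ (g : U T) : U T := ⟨0, g.d, T.σ g.m, g.a, g.hd, g.ha⟩

theorem wQ_mem (g : U T) : wQ g ∈ Q T := rfl
theorem wJ_mem (g : U T) : wJ g ∈ J T := rfl

theorem wQ_mul (hk : k ∈ Q T) : wQ (g * k) = wQ g * wQ k := by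
  have e : k.d = 0 := hk
  have := T.ep_ne
  ext <;> simp only [wQ, U.mul_t, U.mul_a, U.mul_m, U.mul_d, e, map_add, map_mul, map_neg, map_zero,
    map_inv₀, T.σ_ep] <;> field_simp <;> ring

theorem wQ_wQ (hg : g ∈ Q T) : wQ (wQ g) = tor T (1, -1) g := by
  have e : g.d = 0 := hg
  have := T.ep_ne
  ext <;> simp [wQ, e] <;> field_simp <;> ring

theorem wJ_mul (hg : g ∈ J T) : wJ (g * k) = wJ g * wJ k := by
  have h : g.t = 0 := hg
  ext <;> u4r [wJ, h]

theorem wJ_wJ (hg : g ∈ J T) : wJ (wJ g) = g := by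
  have h : g.t = 0 := hg
  ext <;> simp [wJ, h]

theorem wJ_tor (a b : Kˣ) (g : U T) : wJ (tor T (a, b) g) = tor T (b, a) (wJ g) := by
  ext <;> simp [wJ, mul_comm]

theorem wJ_fld (φ : RingAut K) (g : U T) : wJ (fld T φ g) = fld T φ (wJ g) := by
  ext <;> simp [wJ, T.com]

end Cfsg.Agent.H97.U4
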